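import Cfsg.Agent.CubicAmalgam.Setup

/-!
The chain of intersections of the conjugates of a 2-group by powers of an element, in the case where the
consecutive intersections have index 2 and no nontrivial subgroup is normal and invariant.
-/

set_option autoImplicit false
open Subgroup CfsgLib.CubicAmalgam
open scoped commutatorElement

namespace CfsgLib.DihedralPush

variable {G : Type*} [Group G]

/-- `gen g b i k` is generated by the conjugates `g ^ j * b * g ^ -j`, `i ≤ j < i + k`. -/
def el (g b : G) (i : ℕ) : G := g ^ i * b * (g ^ i)⁻¹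

/-- The span of a window of the sequence. -/
def win (g b : G) (i k : ℕ) : Subgroup G := closure (el g b '' Set.Ico i (i + k))

theorem el_add (g b : G) (i s : ℕ) : el g b (i + s) = g ^ s * el g b i * (g ^ s)⁻¹ := by
  simp only [el, add_comm i s, pow_add, mul_inv_rev, mul_assoc]

theorem cj_win (g b : G) (i k s : ℕ) : cj (g ^ s) (win g b i k) = win g b (i + s) k := by
  rw [cj, win, MonoidHom.map_closure, win, ← Set.image_comp]
  congr 1
  ext y
  constructor
  · rintro ⟨j, hj, rfl⟩
    exact ⟨j + s, by simp only [Set.mem_Ico] at hj ⊢; omega, by rw [el_add]; rfl⟩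
  · rintro ⟨j, hj, rfl⟩
    simp only [Set.mem_Ico] at hj
    refine ⟨j - s, by simp only [Set.mem_Ico]; omega, ?_⟩
    show g ^ s * el g b (j - s) * (g ^ s)⁻¹ = _
    rw [← el_add, Nat.sub_add_cancel (by omega)]

theorem win_mono (g b : G) {i k i' k' : ℕ} (h1 : i' ≤ i) (h2 : i + k ≤ i' + k') :
    win g b i k ≤ win g b i' k' :=
  closure_mono (Set.image_mono fun j hj => by simp only [Set.mem_Ico] at hj ⊢; omega)

theorem el_mem_win (g b : G) {i k j : ℕ} (h1 : i ≤ j) (h2 : j < i + k) : el g b j ∈ win g b i k :=
  subset_closure ⟨j, ⟨h1, h2⟩, rfl⟩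

theorem win_le {g b : G} {i k : ℕ} {K : Subgroup G} (h : ∀ j, i ≤ j → j < i + k → el g b j ∈ K) :
    win g b i k ≤ K :=
  (closure_le _).mpr (by rintro _ ⟨j, ⟨h1, h2⟩, rfl⟩; exact h j h1 h2)

theorem win_zero (g b : G) (i : ℕ) : win g b i 0 = ⊥ :=
  le_bot_iff.mp (win_le fun j h1 h2 => absurd h2 (by omega))

theorem win_succ (g b : G) (i k : ℕ) (hk : 1 ≤ k) : win g b i (k + 1) = win g b i k ⊔ win g b (i + 1) k := by
  refine le_antisymm (win_le fun j h1 h2 => ?_) (sup_le (win_mono g b le_rfl (by omega)) (win_mono g b (by omega) (by omega)))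
  by_cases hj : j < i + k
  · exact mem_sup_left (el_mem_win g b h1 hj)
  · exact mem_sup_right (el_mem_win g b (by omega) (by omega))

variable [Finite G]

theorem card_cjx (g : G) (X : Subgroup G) : Nat.card (cj g X) = Nat.card X :=
  card_map_of_injective (MulAut.conj g).injective

theorem relIndex_card {A K : Subgroup G} (h : A ≤ K) : A.relIndex K * Nat.card A = Nat.card K := by
  rw [← relIndex_bot_left A, ← relIndex_bot_left K, mul_comm]
  exact relIndex_mul_relIndex _ _ _ bot_le h

theorem sup_eq_of_two {A B K : Subgroup G} (hA : A ≤ K) (hB : B ≤ K) (h : Nat.card K = 2 * Nat.card A)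
    (hBA : ¬ B ≤ A) : A ⊔ B = K := by
  refine Subgroup.eq_of_le_of_card_ge (sup_le hA hB) ?_
  obtain ⟨k, hk⟩ := card_dvd_of_le (le_sup_left : A ≤ A ⊔ B)
  have hle := card_le_of_le (sup_le hA hB : A ⊔ B ≤ K)
  have hne : Nat.card ↥(A ⊔ B) ≠ Nat.card A := fun e =>
    hBA ((le_sup_right : B ≤ A ⊔ B).trans (le_of_eq (Subgroup.eq_of_le_of_card_ge le_sup_left e.le).symm))
  have hpos : 0 < Nat.card ↥(A ⊔ B) := Nat.card_pos
  rcases k with _ | _ | k
  · simp at hk; omega
  · simp at hk; omega
  · rw [h, hk, Nat.mul_comm 2]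
    exact Nat.mul_le_mul_left _ (by omega)

theorem normal_of_two {A K : Subgroup G} (hA : A ≤ K) (h : Nat.card K = 2 * Nat.card A) :
    K ≤ normalizer (A : Set G) := by
  haveI : (A.subgroupOf K).Normal := by
    apply Subgroup.normal_of_index_eq_two
    have h1 := (A.subgroupOf K).card_mul_index
    rw [Nat.card_congr (subgroupOfEquivOfLe hA).toEquiv, h, Nat.mul_comm 2] at h1
    exact Nat.eq_of_mul_eq_mul_left Nat.card_pos h1
  exact (Subgroup.normal_subgroupOf_iff_le_normalizer hA).mp inferInstance

/-- A 2-group whose intersection with a conjugate has index 2, without invariant normal subgroups. -/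
structure Push (P : Subgroup G) (g : G) : Prop where
  hp : IsPGroup 2 P
  idx : Nat.card P = 2 * Nat.card ↥(P ⊓ cj g P)
  core : ∀ T ≤ P, P ≤ normalizer (T : Set G) → cj g T = T → T = ⊥

/-- The sequence of intersections. -/
def inter (P : Subgroup G) (g : G) : ℕ → Subgroup G
  | 0 => P
  | k + 1 => inter P g k ⊓ cj g (inter P g k)

theorem inter_le (P : Subgroup G) (g : G) (k : ℕ) : inter P g k ≤ P := by
  induction k with
  | zero => exact le_rfl
  | succ k ih => exact inf_le_left.trans ih

variable {P : Subgroup G} {g : G}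

theorem Push.step (h : Push P g) (k : ℕ) :
    inter P g (k + 1) = inter P g k ∨ Nat.card ↥(inter P g k) = 2 * Nat.card ↥(inter P g (k + 1)) := by
  have key : (inter P g (k + 1)).relIndex (inter P g k) ≤ 2 := by
    induction k with
    | zero =>
      have := relIndex_card (A := inter P g 1) (K := P) inf_le_left
      show (inter P g 1).relIndex P ≤ 2
      rw [h.idx, ← show Nat.card ↥(inter P g 1) = Nat.card ↥(P ⊓ cj g P) from rfl] at this
      exact le_of_eq (Nat.eq_of_mul_eq_mul_right Nat.card_pos this)
    | succ k ih =>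
      show ((inter P g (k + 1)) ⊓ cj g (inter P g (k + 1))).relIndex (inter P g (k + 1)) ≤ 2
      rw [inf_relIndex_left]
      have hle : inter P g (k + 1) ≤ cj g (inter P g k) := inf_le_right
      refine le_trans (relIndex_le_of_le_right hle (fun h0 => ?_)) ?_
      · have hle' : cj g (inter P g (k + 1)) ≤ cj g (inter P g k) := cj_mono inf_le_left
        have := relIndex_card hle'
        rw [h0, Nat.zero_mul] at this
        exact Nat.card_pos.ne this
      show ((inter P g (k + 1)).map (MulAut.conj g).toMonoidHom).relIndex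
        ((inter P g k).map (MulAut.conj g).toMonoidHom) ≤ 2
      rwa [relIndex_map_map_of_injective _ _ (MulAut.conj g).injective]
  have hle : inter P g (k + 1) ≤ inter P g k := inf_le_left
  have hmul := relIndex_card hle
  have hne : (inter P g (k + 1)).relIndex (inter P g k) ≠ 0 := fun h0 => by
    rw [h0, Nat.zero_mul] at hmul
    exact Nat.card_pos.ne hmul
  rcases (show _ = 1 ∨ _ = 2 by omega : (inter P g (k + 1)).relIndex (inter P g k) = 1 ∨
    (inter P g (k + 1)).relIndex (inter P g k) = 2) with e | e
  · exact Or.inl (le_antisymm hle (relIndex_eq_one.mp e))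
  · rw [e] at hmul; exact Or.inr hmul.symm

theorem Push.exists_chain (h : Push P g) :
    ∃ (b : G) (r : ℕ), win g b 0 r = P ∧ ∀ k ≤ r, Nat.card ↥(win g b 0 k) = 2 ^ k := by
  classical
  have hex : ∃ k, inter P g (k + 1) = inter P g k := by
    by_contra hcon
    push Not at hcon
    have hlt : ∀ k, Nat.card ↥(inter P g k) + k ≤ Nat.card P := by
      intro k
      induction k with
      | zero => exact le_rfl
      | succ k ih =>
        have h2 := (h.step k).resolve_left (hcon k)
        have : 0 < Nat.card ↥(inter P g (k + 1)) := Nat.card_pos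
        omega
    have := hlt (Nat.card P + 1)
    omega
  set r := Nat.find hex with hr
  have hmin : ∀ k < r, Nat.card ↥(inter P g k) = 2 * Nat.card ↥(inter P g (k + 1)) := fun k hk =>
    (h.step k).resolve_left (Nat.find_min hex hk)
  set T := inter P g r with hT
  have hTfix : cj g T = T := by
    have h1 : T ≤ cj g T := by
      rw [hT]
      nth_rw 1 [← Nat.find_spec hex]
      exact inf_le_right
    exact (Subgroup.eq_of_le_of_card_ge h1 (le_of_eq (card_cjx g T))).symm
  have hgen : ∀ j, j + 1 < r → inter P g (j + 1) ⊔ cj g⁻¹ (inter P g (j + 1)) = inter P g j := by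
    intro j hj
    have hle : cj g⁻¹ (inter P g (j + 1)) ≤ inter P g j := by
      refine (cj_mono (inf_le_right : inter P g (j + 1) ≤ cj g (inter P g j))).trans (le_of_eq ?_)
      rw [← cj_mul, inv_mul_cancel, cj_one]
    refine sup_eq_of_two inf_le_left hle (hmin j (by omega)) fun hcon => Nat.find_min hex hj ?_
    have := cj_mono (g := g) hcon
    rw [← cj_mul, mul_inv_cancel, cj_one] at this
    exact inf_eq_left.mpr this
  have hnorm : ∀ d, ∀ j, j + d = r → inter P g j ≤ normalizer (T : Set G) := by
    intro d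
    induction d with
    | zero => intro j hj; rw [show j = r by omega]; exact le_normalizer
    | succ d ih =>
      intro j hj
      rcases Nat.eq_zero_or_pos d with rfl | hd
      · rw [hT, show r = j + 1 by omega]
        exact normal_of_two inf_le_left (hmin j (by omega))
      · rw [← hgen j (by omega)]
        refine sup_le (ih (j + 1) (by omega)) ?_
        intro x hx
        rw [mem_cj, inv_inv] at hx
        have h1 := normalizer_cj (g := g⁻¹) (ih (j + 1) (by omega) hx)
        rw [show cj g⁻¹ T = T by nth_rw 1 [← hTfix]; rw [← cj_mul, inv_mul_cancel, cj_one]] at h1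
        simpa [mul_assoc] using h1
  have hTbot : T = ⊥ := h.core T (inter_le P g r) (hnorm r 0 (by omega)) hTfix
  have hcard : ∀ d, ∀ j, j + d = r → Nat.card ↥(inter P g j) = 2 ^ d := by
    intro d
    induction d with
    | zero => intro j hj; rw [show j = r by omega, ← hT, hTbot]; simp
    | succ d ih =>
      intro j hj
      rw [hmin j (by omega), ih (j + 1) (by omega), pow_succ, Nat.mul_comm]
  let D : ℕ → Subgroup G := fun k => cj (g ^ (r - k))⁻¹ (inter P g (r - k))
  rcases Nat.eq_zero_or_pos r with hr0 | hr0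
  · refine ⟨1, 0, ?_, fun k hk => ?_⟩
    · rw [win_zero, ← hTbot, hT, hr0]; rfl
    · obtain rfl : k = 0 := by omega
      rw [win_zero]; simp
  have hD1 : Nat.card ↥(D 1) = 2 := by
    show Nat.card ↥(cj _ _) = 2
    rw [card_cjx, hcard 1 (r - 1) (by omega)]
    norm_num
  obtain ⟨b, hbD⟩ : ∃ b, D 1 = zpowers b := by
    haveI : Fact (Nat.Prime 2) := ⟨Nat.prime_two⟩
    haveI : IsCyclic ↥(D 1) := isCyclic_of_prime_card hD1
    obtain ⟨⟨b, hb⟩, hgenb⟩ := isCyclic_iff_exists_zpowers_eq_top.mp (inferInstance : IsCyclic ↥(D 1))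
    refine ⟨b, ?_⟩
    have := congrArg (Subgroup.map (D 1).subtype) hgenb
    rw [MonoidHom.map_zpowers, ← MonoidHom.range_eq_map, Subgroup.range_subtype] at this
    exact this.symm
  have hwinD : ∀ k ≤ r, win g b 0 k = D k := by
    intro k
    induction k with
    | zero =>
      intro _
      show _ = cj _ (inter P g (r - 0))
      rw [win_zero, Nat.sub_zero, ← hT, hTbot, cj, Subgroup.map_bot]
    | succ k ih =>
      intro hk
      rcases Nat.eq_zero_or_pos k with rfl | hk1
      · rw [hbD]
        refine le_antisymm (win_le fun j _ h2 => ?_) ?_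
        · obtain rfl : j = 0 := by omega
          simp [el]
        · rw [zpowers_le]
          simpa [el] using el_mem_win g b (le_refl 0) (show 0 < 0 + 1 by omega)
      · have hs : win g b (0 + 1) k = cj g (D k) := by
          rw [← cj_win, pow_one, ih (by omega)]
        rw [win_succ g b 0 k hk1, hs, ih (by omega)]
        show cj _ _ ⊔ cj g (cj _ _) = cj _ _
        obtain ⟨j, hj⟩ : ∃ j, r - (k + 1) = j ∧ r - k = j + 1 := ⟨_, rfl, by omega⟩
        rw [hj.1, hj.2, ← hgen j (by omega), cj_sup, ← cj_mul, ← cj_mul]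
        have e1 : g * (g ^ (j + 1))⁻¹ = (g ^ j)⁻¹ := by rw [pow_succ, mul_inv_rev]; group
        have e2 : (g ^ j)⁻¹ * g⁻¹ = (g ^ (j + 1))⁻¹ := by rw [← mul_inv_rev, ← pow_succ']
        rw [e1, e2, sup_comm]
  refine ⟨b, r, ?_, fun k hk => ?_⟩
  · rw [hwinD r le_rfl]
    show cj _ (inter P g (r - r)) = P
    rw [Nat.sub_self, pow_zero, inv_one, cj_one]
    rfl
  · rw [hwinD k hk]
    show Nat.card ↥(cj _ _) = _
    rw [card_cjx, hcard k (r - k) (by omega)]

end CfsgLib.DihedralPush
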