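import Mathlib
import Cfsg.Agent.PCore.Basic
import Cfsg.Prelude.Def_CaseTheorems

/-!
Groups with a small elementary abelian normal 2-subgroup and a dihedral complement.
-/

set_option autoImplicit false
open Subgroup

namespace CfsgLib.DihedralPush

variable {K : Type*} [Group K] [Finite K]

/-- `K` is generated modulo the elementary abelian `Q` by an inverting involution and an element of odd order. -/
structure Dih (Q : Subgroup K) (t d : K) : Prop where
  normal : Q.Normal
  sq : ∀ q ∈ Q, q * q = 1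
  comm : ∀ a ∈ Q, ∀ b ∈ Q, a * b = b * a
  tt : t * t = 1
  odd : Odd (orderOf d)
  tdt : t * d * t = d⁻¹
  tQ : t ∉ Q
  dec : ∀ k : K, ∃ q ∈ Q, ∃ j : ℕ, k = q * d ^ j ∨ k = q * d ^ j * t

variable {Q : Subgroup K} {t d : K}

theorem exists_pow {x : K} (hx : x ∈ zpowers d) : ∃ i : ℕ, d ^ i = x :=
  Submonoid.mem_powers_iff _ _ |>.mp ((isOfFinOrder_of_finite d).mem_powers_iff_mem_zpowers.mpr hx)

theorem Dih.tinv (h : Dih Q t d) : t⁻¹ = t := inv_eq_of_mul_eq_one_right h.tt

theorem Dih.tdpow (h : Dih Q t d) (j : ℕ) : t * d ^ j * t = (d ^ j)⁻¹ := by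
  have h1 : t * d * t⁻¹ = d⁻¹ := by rw [h.tinv]; exact h.tdt
  calc t * d ^ j * t = t * d ^ j * t⁻¹ := by rw [h.tinv]
    _ = (t * d * t⁻¹) ^ j := by rw [conj_pow]
    _ = (d ^ j)⁻¹ := by rw [h1, inv_pow]

theorem Dih.eq_one_of_pow_mem (h : Dih Q t d) (j : ℕ) (hj : d ^ j ∈ Q) : d ^ j = 1 := by
  have h2 : (d ^ j) ^ 2 = 1 := by rw [pow_two]; exact h.sq _ hj
  have h3 : orderOf d ∣ j * 2 := orderOf_dvd_of_pow_eq_one (by rw [pow_mul, h2])
  exact orderOf_dvd_iff_pow_eq_one.mp
    ((Nat.coprime_two_right.mpr h.odd).dvd_of_dvd_mul_right h3)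

theorem Dih.eq_one_of_inv_eq (h : Dih Q t d) {x : K} (hx : x ∈ zpowers d) (h2 : x⁻¹ * x⁻¹ = 1) : x = 1 := by
  obtain ⟨j, rfl⟩ := exists_pow hx
  have h3 : orderOf d ∣ j * 2 := orderOf_dvd_of_pow_eq_one (by
    rw [← inv_eq_one, pow_mul, pow_two, mul_inv_rev, h2])
  exact orderOf_dvd_iff_pow_eq_one.mp ((Nat.coprime_two_right.mpr h.odd).dvd_of_dvd_mul_right h3)

theorem Dih.notMem_cyclic (h : Dih Q t d) (j : ℕ) {q : K} (hq : q ∈ Q) : q * d ^ j * t ∉ Q := by
  intro hm
  have hQn := h.normal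
  have h1 : d ^ j * t ∈ Q := by
    have := Q.mul_mem (Q.inv_mem hq) hm
    rwa [mul_assoc q, inv_mul_cancel_left] at this
  have h2 : t * d ^ j ∈ Q := by
    have := hQn.conj_mem _ h1 t
    rwa [show t * (d ^ j * t) * t⁻¹ = t * d ^ j by group] at this
  have h3 : (d ^ j)⁻¹ * (d ^ j)⁻¹ ∈ Q := by
    have := Q.mul_mem (Q.inv_mem h1) h2
    rw [mul_inv_rev, h.tinv] at this
    have e : t * (d ^ j)⁻¹ * (t * d ^ j) = t * (d ^ j)⁻¹ * t * d ^ j := by group
    rw [e] at this
    have e2 : t * (d ^ j)⁻¹ * t = d ^ j := by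
      have := congrArg (·⁻¹) (h.tdpow j)
      simp only [mul_inv_rev, inv_inv, h.tinv] at this
      rwa [← mul_assoc] at this
    rw [e2] at this
    rw [← mul_inv_rev]
    exact Q.inv_mem this
  have h4 : d ^ j = 1 := h.eq_one_of_inv_eq (pow_mem (mem_zpowers d) j) (by
    rw [← mul_inv_rev, ← pow_add] at h3
    rw [← mul_inv_rev, ← pow_add, h.eq_one_of_pow_mem (j + j) (by simpa using Q.inv_mem h3), inv_one])
  rw [h4, one_mul] at h1
  exact h.tQ h1

theorem Dih.commute_of_cycle (h : Dih Q t d) {q c : K} (hc : Commute c d) (hc2 : c * c = 1)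
    (hq : d * q * d⁻¹ = q * c) : c = 1 := by
  have key : ∀ k : ℕ, d ^ k * q * (d ^ k)⁻¹ = q * c ^ k := by
    intro k
    induction k with
    | zero => simp
    | succ k ih =>
      calc d ^ (k + 1) * q * (d ^ (k + 1))⁻¹ = d * (d ^ k * q * (d ^ k)⁻¹) * d⁻¹ := by
            rw [pow_succ']; group
        _ = d * q * d⁻¹ * (d * c ^ k * d⁻¹) := by rw [ih]; group
        _ = q * c * c ^ k := by rw [hq, ((hc.pow_left k).symm).eq, mul_inv_cancel_right]
        _ = q * c ^ (k + 1) := by rw [pow_succ', mul_assoc]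
  have h1 := key (orderOf d)
  rw [pow_orderOf_eq_one, one_mul, inv_one, mul_one, left_eq_mul] at h1
  obtain ⟨k, hk⟩ := h.odd
  rwa [hk, pow_add, pow_mul, pow_two, hc2, one_pow, one_mul, pow_one] at h1

/-- The kernel of a homomorphism containing the odd core. -/
theorem oddCore_eq {T : Subgroup K} (hT : T.Normal) (hodd : ¬ 2 ∣ Nat.card T)
    (hmax : ∀ k : K, k ∈ Cfsg.oddCore K → k ∈ T) : Cfsg.oddCore K = T :=
  le_antisymm hmax (CfsgLib.PCore.le_pPrimeCore hT (CfsgLib.PCore.coprime_of_not_dvd hodd))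

theorem Dih.not_two_dvd_zpowers (h : Dih Q t d) : ¬ 2 ∣ Nat.card ↥(zpowers d) := by
  rw [Nat.card_zpowers]
  exact h.odd.not_two_dvd_nat

theorem Dih.klein (h : Dih Q t d) (hQ : Nat.card Q = 2) :
    Nonempty (K ⧸ Cfsg.oddCore K ≃* Multiplicative (ZMod 2) × Multiplicative (ZMod 2)) := by
  classical
  have hQn := h.normal
  have hcen : ∀ q ∈ Q, ∀ k : K, k * q = q * k := by
    intro q hq k
    by_cases hq1 : q = 1
    · simp [hq1]
    have h2 : k * q * k⁻¹ ∈ Q := hQn.conj_mem q hq k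
    have h3 : k * q * k⁻¹ = q := by
      haveI : Fintype ↥Q := Fintype.ofFinite _
      have hc : Fintype.card ↥Q = 2 := by rw [← Nat.card_eq_fintype_card, hQ]
      have hne : k * q * k⁻¹ ≠ 1 := fun e => hq1 (conj_eq_one_iff.mp e)
      obtain ⟨a, b, hab, huniv⟩ := Finset.card_eq_two.mp (show (Finset.univ : Finset ↥Q).card = 2 by simpa using hc)
      have hall : ∀ z : ↥Q, z = a ∨ z = b := fun z => by
        have := Finset.mem_univ z
        rw [huniv] at this
        simpa using this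
      rcases hall ⟨q, hq⟩ with e | e <;> rcases hall ⟨_, h2⟩ with e' | e' <;> rcases hall 1 with e'' | e'' <;>
        first
          | exact congrArg Subtype.val (e'.trans e.symm)
          | exact absurd (congrArg Subtype.val (e.trans e''.symm)) hq1
          | exact absurd (congrArg Subtype.val (e'.trans e''.symm)) hne
    calc k * q = k * q * k⁻¹ * k := by group
      _ = q * k := by rw [h3]
  set X := zpowers d with hX
  have hXn : X.Normal := by
    refine ⟨fun x hx k => ?_⟩
    obtain ⟨i, rfl⟩ := exists_pow hx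
    obtain ⟨q, hq, j, rfl | rfl⟩ := h.dec k
    · have : q * d ^ j * d ^ i * (q * d ^ j)⁻¹ = d ^ i := by
        rw [mul_inv_rev, mul_assoc q, ← pow_add, Nat.add_comm, pow_add, ← mul_assoc q, hcen q hq (d ^ i) |>.symm]
        group
      rw [this]; exact pow_mem (mem_zpowers d) i
    · have : q * d ^ j * t * d ^ i * (q * d ^ j * t)⁻¹ = (d ^ i)⁻¹ := by
        have e : q * d ^ j * t * d ^ i * (q * d ^ j * t)⁻¹ = q * (d ^ j * (t * d ^ i * t⁻¹) * (d ^ j)⁻¹) * q⁻¹ := by
          group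
        rw [e, h.tinv, h.tdpow, (((Commute.refl d).pow_pow j i).inv_right).eq, mul_inv_cancel_right,
          ← hcen q hq, mul_inv_cancel_right]
      rw [this]; exact inv_mem (pow_mem (mem_zpowers d) i)
  have hsq : ∀ k : K, k * k ∈ X := by
    intro k
    obtain ⟨q, hq, j, rfl | rfl⟩ := h.dec k
    · have : q * d ^ j * (q * d ^ j) = d ^ j * d ^ j := by
        rw [mul_assoc q, ← mul_assoc (d ^ j) q, hcen q hq, mul_assoc q (d ^ j), ← mul_assoc q q, h.sq q hq, one_mul]
      rw [this]; exact mul_mem (pow_mem (mem_zpowers d) j) (pow_mem (mem_zpowers d) j)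
    · have : q * d ^ j * t * (q * d ^ j * t) = d ^ j * (t * d ^ j * t) := by
        rw [show q * d ^ j * t * (q * d ^ j * t) = q * (d ^ j * t * q) * d ^ j * t by group,
          hcen q hq, ← mul_assoc, h.sq q hq, one_mul]
        group
      rw [this, h.tdpow, mul_inv_cancel]; exact one_mem _
  have hO : Cfsg.oddCore K = X := by
    refine oddCore_eq hXn h.not_two_dvd_zpowers fun k hk => ?_
    have hodd : Odd (orderOf k) := by
      rw [← Nat.not_even_iff_odd, even_iff_two_dvd]
      intro h2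
      have h3 : orderOf k ∣ Nat.card ↥(Cfsg.oddCore K) := by
        have := orderOf_dvd_natCard (⟨k, hk⟩ : ↥(Cfsg.oddCore K))
        rwa [Subgroup.orderOf_mk] at this
      exact (CfsgLib.PCore.not_dvd_card_pPrimeCore 2 K) (h2.trans h3)
    obtain ⟨i, hi⟩ := hodd
    have : k = (k * k) ^ (i + 1) := by
      rw [← pow_two, ← pow_mul, show 2 * (i + 1) = orderOf k + 1 by omega, pow_succ, pow_orderOf_eq_one, one_mul]
    rw [this]
    exact pow_mem (hsq k) _
  have hinf : ∀ x ∈ X, x ∈ Q → x = 1 := fun x hx hxQ => by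
    obtain ⟨i, rfl⟩ := exists_pow hx
    exact h.eq_one_of_pow_mem i hxQ
  have hcard : Nat.card (K ⧸ X) = 4 := by
    let f : ↥Q × Bool → K ⧸ X := fun p => QuotientGroup.mk ((p.1 : K) * cond p.2 t 1)
    have hf : Function.Bijective f := by
      constructor
      · rintro ⟨a, u⟩ ⟨b, v⟩ e
        have e' : ((a : K) * cond u t 1)⁻¹ * ((b : K) * cond v t 1) ∈ X := QuotientGroup.eq.mp e
        have hab : (cond u t 1)⁻¹ * cond v t 1 * ((a : K)⁻¹ * b) ∈ X := by
          rw [mul_inv_rev] at e'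
          have e2 : (cond u t 1)⁻¹ * (a : K)⁻¹ * ((b : K) * cond v t 1) = (cond u t 1)⁻¹ * cond v t 1 * ((a : K)⁻¹ * b) := by
            rw [show (cond u t 1)⁻¹ * (a : K)⁻¹ * ((b : K) * cond v t 1) = (cond u t 1)⁻¹ * (((a : K)⁻¹ * b) * cond v t 1) by group,
              ← hcen _ (mul_mem (inv_mem a.2) b.2) (cond v t 1), mul_assoc]
          rwa [e2] at e'
        have hq : ((a : K)⁻¹ * b) ∈ Q := mul_mem (inv_mem a.2) b.2
        have hbad : ∀ w ∈ Q, t * w ∉ X := fun w hw hm => by
          obtain ⟨i, hi⟩ := exists_pow hm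
          refine h.notMem_cyclic i (one_mem Q) ?_
          rw [one_mul, show d ^ i = t * w from hi, hcen w hw t, mul_assoc, h.tt, mul_one]
          exact hw
        cases u <;> cases v <;> simp only [cond_true, cond_false, inv_one, one_mul, mul_one, h.tinv, h.tt] at hab
        · exact Prod.ext (Subtype.ext (inv_mul_eq_one.mp (hinf _ hab hq))) rfl
        · exact absurd hab (hbad _ hq)
        · exact absurd hab (hbad _ hq)
        · exact Prod.ext (Subtype.ext (inv_mul_eq_one.mp (hinf _ hab hq))) rfl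
      · intro z
        obtain ⟨k, rfl⟩ := QuotientGroup.mk_surjective z
        obtain ⟨q, hq, j, rfl | rfl⟩ := h.dec k
        · refine ⟨(⟨q, hq⟩, false), QuotientGroup.eq.mpr ?_⟩
          simp only [cond_false, mul_one]
          rw [inv_mul_cancel_left]
          exact pow_mem (mem_zpowers d) j
        · refine ⟨(⟨q, hq⟩, true), QuotientGroup.eq.mpr ?_⟩
          simp only [cond_true]
          rw [show (q * t)⁻¹ * (q * d ^ j * t) = t⁻¹ * d ^ j * t by group, h.tinv, h.tdpow]
          exact inv_mem (pow_mem (mem_zpowers d) j)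
    rw [← Nat.card_congr (Equiv.ofBijective f hf), Nat.card_prod, hQ, Nat.card_eq_fintype_card (α := Bool),
      Fintype.card_bool]
  have h2 : ∀ z : K ⧸ X, z * z = 1 := fun z => by
    obtain ⟨k, rfl⟩ := QuotientGroup.mk_surjective z
    exact (QuotientGroup.eq_one_iff _).mpr (hsq k)
  haveI : IsKleinFour (K ⧸ X) := by
    refine ⟨hcard, ?_⟩
    refine (Nat.dvd_prime Nat.prime_two).mp (Monoid.exponent_dvd_of_forall_pow_eq_one fun z => by
      rw [pow_two]; exact h2 z) |>.resolve_left fun h1 => ?_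
    haveI : Nontrivial (K ⧸ X) := Finite.one_lt_card_iff_nontrivial.mp (by omega)
    haveI := Monoid.exp_eq_one_iff.mp h1
    exact not_subsingleton (K ⧸ X) inferInstance
  haveI : IsKleinFour (Multiplicative (ZMod 2) × Multiplicative (ZMod 2)) := by
    refine ⟨by simp [Nat.card_eq_fintype_card], ?_⟩
    refine (Nat.dvd_prime Nat.prime_two).mp (Monoid.exponent_dvd_of_forall_pow_eq_one (by decide)) |>.resolve_left
      fun h1 => ?_
    haveI := Monoid.exp_eq_one_iff.mp h1
    exact not_subsingleton (Multiplicative (ZMod 2) × Multiplicative (ZMod 2)) inferInstance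
  obtain ⟨e⟩ := IsKleinFour.nonempty_mulEquiv (G₁ := K ⧸ X) (G₂ := Multiplicative (ZMod 2) × Multiplicative (ZMod 2))
  exact ⟨(QuotientGroup.quotientMulEquivOfEq hO).trans e⟩

theorem Dih.symFour (h : Dih Q t d) {s : ℕ} (hs : s = 2 ∨ s = 3) (hQ : Nat.card Q = 2 ^ s)
    {R : Subgroup K} (hRQ : R ≤ Q) (hR2 : Nat.card Q = 2 * Nat.card R) (hRt : ∀ x ∈ R, t * x = x * t)
    (hnt : ∃ q ∈ Q, d * q ≠ q * d) :
    Nonempty (K ⧸ Cfsg.oddCore K ≃* Equiv.Perm (Fin 4)) ∨
      Nonempty (K ⧸ Cfsg.oddCore K ≃* Equiv.Perm (Fin 4) × Multiplicative (ZMod 2)) := by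
  classical
  have hQn := h.normal
  set C : Subgroup K := Q ⊓ centralizer ({d} : Set K) with hC
  have hmemC : ∀ q, q ∈ C ↔ q ∈ Q ∧ d * q = q * d := fun q => by
    rw [hC, Subgroup.mem_inf, mem_centralizer_singleton_iff]
    exact ⟨fun ⟨a, b⟩ => ⟨a, b.symm⟩, fun ⟨a, b⟩ => ⟨a, b.symm⟩⟩
  have hCle : C ≤ Q := inf_le_left
  -- the commutator map
  let f : ↥Q →* K :=
    { toFun := fun q => (q : K) * (d * q * d⁻¹)
      map_one' := by simp
      map_mul' := fun a b => by
        have e : d * ((a : K) * b) * d⁻¹ = (d * a * d⁻¹) * (d * b * d⁻¹) := by group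
        have hc := h.comm _ b.2 _ (hQn.conj_mem _ a.2 d)
        simp only [Subgroup.coe_mul]
        rw [e]
        calc (a : K) * b * (d * a * d⁻¹ * (d * b * d⁻¹)) = a * ((b : K) * (d * a * d⁻¹)) * (d * b * d⁻¹) := by group
          _ = a * ((d * a * d⁻¹) * (b : K)) * (d * b * d⁻¹) := by rw [hc]
          _ = _ := by group }
  have hfQ : ∀ q : ↥Q, f q ∈ Q := fun q => mul_mem q.2 (hQn.conj_mem _ q.2 d)
  have hfc : ∀ q : ↥Q, Commute (f q) d → f q = 1 := fun q hq =>
    h.commute_of_cycle (q := (q : K)) hq (h.sq _ (hfQ q)) (by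
      show _ = (q : K) * ((q : K) * (d * q * d⁻¹))
      rw [← mul_assoc (q : K), h.sq _ q.2, one_mul])
  have hker : f.ker = C.subgroupOf Q := by
    ext q
    rw [MonoidHom.mem_ker, mem_subgroupOf, hmemC]
    show (q : K) * (d * q * d⁻¹) = 1 ↔ _
    rw [mul_eq_one_iff_inv_eq, inv_eq_of_mul_eq_one_right (h.sq _ q.2), eq_mul_inv_iff_mul_eq]
    exact ⟨fun e => ⟨q.2, e.symm⟩, fun e => e.2.symm⟩
  set E := f.range with hE
  have hEQ : E ≤ Q := by rintro _ ⟨q, rfl⟩; exact hfQ q
  have hEC : ∀ x ∈ E, x ∈ C → x = 1 := by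
    rintro _ ⟨q, rfl⟩ hx
    exact hfc q ((hmemC _).mp hx).2.symm
  have hcardEC : Nat.card ↥E * Nat.card ↥C = Nat.card ↥Q := by
    have := card_eq_card_quotient_mul_card_subgroup f.ker
    rw [Nat.card_congr (QuotientGroup.quotientKerEquivRange f).toEquiv, hker,
      Nat.card_congr (subgroupOfEquivOfLe hCle).toEquiv] at this
    exact this.symm
  -- `C` has index four
  have hC4 : Nat.card ↥E = 4 := by
    obtain ⟨k, hk⟩ := h.odd
    let δ := d ^ (k + 1)
    have hδ : δ * t * δ⁻¹ = d * t := by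
      have e1 : t * δ⁻¹ = δ * t := by
        rw [← h.tdpow (k + 1)]
        show t * (t * δ * t) = δ * t
        rw [← mul_assoc, ← mul_assoc, h.tt, one_mul]
      rw [mul_assoc, e1, ← mul_assoc]
      congr 1
      show d ^ (k + 1) * d ^ (k + 1) = d
      rw [← pow_add, show k + 1 + (k + 1) = orderOf d + 1 by omega, pow_succ, pow_orderOf_eq_one, one_mul]
    set R' := R.map (MulAut.conj δ).toMonoidHom with hR'
    have hR'Q : R' ≤ Q := by rintro _ ⟨x, hx, rfl⟩; exact hQn.conj_mem x (hRQ hx) δ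
    have hle : R ⊓ R' ≤ C := by
      rintro q ⟨hq, x, hx, hxq⟩
      refine (hmemC q).mpr ⟨hRQ hq, ?_⟩
      have e1 : d * t * q = q * (d * t) := by
        rw [← hδ, ← hxq]
        show δ * t * δ⁻¹ * (δ * x * δ⁻¹) = δ * x * δ⁻¹ * (δ * t * δ⁻¹)
        calc δ * t * δ⁻¹ * (δ * x * δ⁻¹) = δ * (t * x) * δ⁻¹ := by group
          _ = δ * (x * t) * δ⁻¹ := by rw [hRt x hx]
          _ = _ := by group
      apply mul_right_cancel (b := t)
      rw [mul_assoc d q t, ← hRt q hq, ← mul_assoc d, e1, mul_assoc]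
    have hRi : R.relIndex Q = 2 := by
      have h1 : R.relIndex Q * Nat.card R = Nat.card Q := by
        rw [← relIndex_bot_left R, ← relIndex_bot_left Q, mul_comm]
        exact relIndex_mul_relIndex _ _ _ bot_le hRQ
      rw [hR2] at h1
      exact Nat.eq_of_mul_eq_mul_right Nat.card_pos h1
    have hR'i : R'.relIndex Q = 2 := by
      have hQmap : Q.map (MulAut.conj δ).toMonoidHom = Q := by
        refine eq_of_le_of_card_ge ?_ (le_of_eq (card_map_of_injective (MulAut.conj δ).injective).symm)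
        rintro _ ⟨x, hx, rfl⟩
        exact hQn.conj_mem x hx δ
      rw [← hRi]
      nth_rw 1 [← hQmap]
      exact relIndex_map_map_of_injective _ _ (MulAut.conj δ).injective
    have h4 : (R ⊓ R').relIndex Q ≤ 4 := (relIndex_inf_le ..).trans (by rw [hRi, hR'i])
    have hQC : C.relIndex Q * Nat.card C = Nat.card Q := by
      rw [← relIndex_bot_left C, ← relIndex_bot_left Q, mul_comm]
      exact relIndex_mul_relIndex _ _ _ bot_le hCle
    have hle4 : C.relIndex Q ≤ 4 := by
      refine le_trans (Nat.le_of_dvd ?_ (relIndex_dvd_of_le_left Q hle)) h4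
      refine Nat.pos_of_ne_zero fun h0 => ?_
      have := relIndex_mul_relIndex _ _ _ (bot_le (a := R ⊓ R')) (inf_le_left.trans hRQ)
      rw [h0, mul_zero, relIndex_bot_left] at this
      exact Nat.card_pos.ne this
    have hEC' : Nat.card ↥E = C.relIndex Q := Nat.eq_of_mul_eq_mul_right Nat.card_pos (hcardEC.trans hQC.symm)
    have hdvd : Nat.card ↥E ∣ 2 ^ s := hQ ▸ card_dvd_of_le hEQ
    obtain ⟨i, -, hi⟩ := (Nat.dvd_prime_pow Nat.prime_two).mp hdvd
    have hne1 : Nat.card ↥E ≠ 1 := by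
      intro h1
      obtain ⟨q, hq, hne⟩ := hnt
      have : (⟨q, hq⟩ : ↥Q) ∈ f.ker := by
        rw [MonoidHom.mem_ker]
        have := card_eq_one.mp h1
        exact mem_bot.mp (this ▸ (⟨_, rfl⟩ : f ⟨q, hq⟩ ∈ E))
      rw [hker, mem_subgroupOf, hmemC] at this
      exact hne this.2
    have hne2 : Nat.card ↥E ≠ 2 := by
      intro h2
      have hcomm : ∀ x ∈ E, Commute x d := by
        rintro _ ⟨q, rfl⟩
        by_cases hq : f q = 1
        · rw [hq]; exact Commute.one_left d
        have h3 : d * f q * d⁻¹ = f ⟨d * q * d⁻¹, hQn.conj_mem _ q.2 d⟩ := by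
          show d * ((q : K) * (d * q * d⁻¹)) * d⁻¹ = d * q * d⁻¹ * (d * (d * q * d⁻¹) * d⁻¹)
          group
        have hne : d * f q * d⁻¹ ≠ 1 := fun e => hq (conj_eq_one_iff.mp e)
        haveI : Fintype ↥E := Fintype.ofFinite _
        obtain ⟨a, b, hab, huniv⟩ := Finset.card_eq_two.mp (show (Finset.univ : Finset ↥E).card = 2 by
          rw [Finset.card_univ, ← Nat.card_eq_fintype_card, h2])
        have hall : ∀ z : ↥E, z = a ∨ z = b := fun z => by
          have := Finset.mem_univ z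
          rw [huniv] at this
          simpa using this
        have e : d * f q * d⁻¹ = f q := by
          rcases hall ⟨f q, ⟨_, rfl⟩⟩ with e | e <;>
            rcases hall ⟨d * f q * d⁻¹, by rw [h3]; exact ⟨_, rfl⟩⟩ with e' | e' <;>
            rcases hall 1 with e'' | e'' <;>
            first
              | exact congrArg Subtype.val (e'.trans e.symm)
              | exact absurd (congrArg Subtype.val (e.trans e''.symm)) hq
              | exact absurd (congrArg Subtype.val (e'.trans e''.symm)) hne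
        show f q * d = d * f q
        calc f q * d = d * f q * d⁻¹ * d := by rw [e]
          _ = d * f q := by group
      refine hne1 (card_eq_one.mpr ((eq_bot_iff_forall _).mpr fun x hx => ?_))
      obtain ⟨q, rfl⟩ := hx
      exact hfc q (hcomm _ ⟨q, rfl⟩)
    rw [hi] at hne1 hne2 hEC' ⊢
    rcases i with _ | _ | _ | i
    · simp at hne1
    · simp at hne2
    · rfl
    · have : 8 ≤ 2 ^ (i + 3) := by
        calc 8 = 2 ^ 3 := rfl
          _ ≤ 2 ^ (i + 3) := Nat.pow_le_pow_right (by omega) (by omega)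
      rw [hEC'] at this
      exact absurd (this.trans hle4) (by norm_num)
  have hCcard : Nat.card ↥C * 4 = 2 ^ s := by rw [← hC4, mul_comm, hcardEC, hQ]
  -- `C` is central
  have htC : ∀ c ∈ C, t * c * t⁻¹ ∈ C := by
    intro c hc
    obtain ⟨h1, h2⟩ := (hmemC c).mp hc
    refine (hmemC _).mpr ⟨hQn.conj_mem c h1 t, ?_⟩
    rw [h.tinv]
    have e : d * t = t * d⁻¹ := by rw [← h.tdt, ← mul_assoc, ← mul_assoc, h.tt, one_mul]
    have e' : t * d = d⁻¹ * t := by rw [← h.tdt, mul_assoc, h.tt, mul_one]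
    have h2' : d⁻¹ * c = c * d⁻¹ := ((Commute.inv_left (show Commute d c from h2))).eq
    calc d * (t * c * t) = t * (d⁻¹ * c) * t := by rw [← mul_assoc, ← mul_assoc, e]; group
      _ = t * c * (d⁻¹ * t) := by rw [h2']; group
      _ = t * c * (t * d) := by rw [e']
      _ = t * c * t * d := by group
  have hcen : ∀ c ∈ C, ∀ k : K, k * c = c * k := by
    intro c hc k
    have ht : t * c = c * t := by
      by_cases hc1 : c = 1
      · simp [hc1]
      have hle2 : Nat.card ↥C ≤ 2 := by rcases hs with rfl | rfl <;> omega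
      haveI : Fintype ↥C := Fintype.ofFinite _
      have e : t * c * t⁻¹ = c := by
        by_contra hne
        have h3 : t * c * t⁻¹ ≠ 1 := fun e => hc1 (conj_eq_one_iff.mp e)
        have : ({(⟨c, hc⟩ : ↥C), (⟨_, htC c hc⟩ : ↥C), (1 : ↥C)} : Finset ↥C).card = 3 := Finset.card_eq_three.mpr
          ⟨_, _, _, fun e => hne (congrArg Subtype.val e).symm, fun e => hc1 (congrArg Subtype.val e),
            fun e => h3 (congrArg Subtype.val e), rfl⟩
        have := this ▸ Finset.card_le_univ ({(⟨c, hc⟩ : ↥C), (⟨_, htC c hc⟩ : ↥C), (1 : ↥C)} : Finset ↥C)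
        rw [← Nat.card_eq_fintype_card] at this
        omega
      calc t * c = t * c * t⁻¹ * t := by group
        _ = c * t := by rw [e]
    have hd : Commute (d : K) c := ((hmemC c).mp hc).2
    obtain ⟨q, hq, j, rfl | rfl⟩ := h.dec k
    · exact ((show Commute q c from h.comm q hq c (hCle hc)).mul_left (hd.pow_left j)).eq
    · exact (((show Commute q c from h.comm q hq c (hCle hc)).mul_left (hd.pow_left j)).mul_left ht).eq
  have hdec' : ∀ q ∈ Q, ∃ e ∈ E, ∃ c ∈ C, q = e * c := by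
    intro q hq
    have hinj : Function.Injective fun p : ↥E × ↥C => (⟨p.1 * p.2, mul_mem (hEQ p.1.2) (hCle p.2.2)⟩ : ↥Q) := by
      rintro ⟨a, b⟩ ⟨a', b'⟩ e
      have e' : (a : K) * b = a' * b' := congrArg Subtype.val e
      have h1 : (a' : K)⁻¹ * a = b' * (b : K)⁻¹ := by
        rw [eq_mul_inv_iff_mul_eq, mul_assoc, e', inv_mul_cancel_left]
      have h2 := hEC _ (mul_mem (inv_mem a'.2) a.2) (h1 ▸ mul_mem b'.2 (inv_mem b.2))
      have ha : a = a' := (Subtype.ext (inv_mul_eq_one.mp h2)).symm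
      subst ha
      exact Prod.ext rfl (Subtype.ext (mul_left_cancel e'))
    have hbij := (Nat.bijective_iff_injective_and_card _).mpr ⟨hinj, by rw [Nat.card_prod, hcardEC]⟩
    obtain ⟨⟨a, b⟩, hab⟩ := hbij.2 ⟨q, hq⟩
    exact ⟨a, a.2, b, b.2, (congrArg Subtype.val hab).symm⟩
  -- the kernel `H₀ = E ⟨d, t⟩`
  set S := Subgroup.closure ({d, t} : Set K) with hS
  have hdS : d ∈ S := subset_closure (by simp)
  have htS : t ∈ S := subset_closure (by simp)
  have hSform : ∀ x ∈ S, ∃ j : ℕ, x = d ^ j ∨ x = d ^ j * t := by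
    intro x hx
    let S' : Subgroup K :=
      { carrier := {x | x ∈ zpowers d ∨ x * t ∈ zpowers d}
        one_mem' := Or.inl (one_mem _)
        mul_mem' := fun {a b} ha hb => by
          have hinv : ∀ z ∈ zpowers d, t * z * t ∈ zpowers d := fun z hz => by
            obtain ⟨i, rfl⟩ := exists_pow hz
            rw [h.tdpow]; exact inv_mem (pow_mem (mem_zpowers d) i)
          rcases ha with ha | ha <;> rcases hb with hb | hb
          · exact Or.inl (mul_mem ha hb)
          · exact Or.inr (by rw [mul_assoc]; exact mul_mem ha hb)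
          · refine Or.inr ?_
            rw [show a * b * t = a * t * (t⁻¹ * b * t) by group, h.tinv]
            exact mul_mem ha (hinv b hb)
          · refine Or.inl ?_
            rw [show a * b = a * t * (t⁻¹ * (b * t) * t⁻¹) by group, h.tinv]
            exact mul_mem ha (hinv _ hb)
        inv_mem' := fun {a} ha => by
          rcases ha with ha | ha
          · exact Or.inl (inv_mem ha)
          · refine Or.inr ?_
            obtain ⟨i, hi⟩ := exists_pow ha
            have : a = d ^ i * t := by rw [show d ^ i = a * t from hi, mul_assoc, h.tt, mul_one]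
            rw [this, mul_inv_rev, h.tinv, ← h.tdpow, ← mul_assoc, ← mul_assoc, h.tt, one_mul, mul_assoc, h.tt, mul_one]
            exact pow_mem (mem_zpowers d) i }
    have : S ≤ S' := (closure_le _).mpr (by
      rintro z (rfl | rfl)
      · exact Or.inl (mem_zpowers _)
      · exact Or.inr (by rw [h.tt]; exact one_mem _))
    rcases this hx with hx' | hx'
    · obtain ⟨i, hi⟩ := exists_pow hx'
      exact ⟨i, Or.inl hi.symm⟩
    · obtain ⟨i, hi⟩ := exists_pow hx'
      exact ⟨i, Or.inr (by rw [show d ^ i = x * t from hi, mul_assoc, h.tt, mul_one])⟩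
  have hEn : E.Normal := by
    refine ⟨fun x hx k => ?_⟩
    have hde : ∀ x ∈ E, d * x * d⁻¹ ∈ E := by
      rintro _ ⟨q, rfl⟩
      exact ⟨⟨d * q * d⁻¹, hQn.conj_mem _ q.2 d⟩, by
        show d * q * d⁻¹ * (d * (d * q * d⁻¹) * d⁻¹) = d * ((q : K) * (d * q * d⁻¹)) * d⁻¹
        group⟩
    have hte : ∀ x ∈ E, t * x * t⁻¹ ∈ E := by
      rintro _ ⟨q, rfl⟩
      refine ⟨⟨d⁻¹ * (t * q * t⁻¹) * d⁻¹⁻¹, hQn.conj_mem _ (hQn.conj_mem _ q.2 t) d⁻¹⟩, ?_⟩
      show d⁻¹ * (t * q * t⁻¹) * d⁻¹⁻¹ * (d * (d⁻¹ * (t * q * t⁻¹) * d⁻¹⁻¹) * d⁻¹) = t * ((q : K) * (d * q * d⁻¹)) * t⁻¹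
      have e1 : d⁻¹ * (t * q * t⁻¹) * d⁻¹⁻¹ = t * (d * q * d⁻¹) * t⁻¹ := by
        have e : d⁻¹ * t = t * d := by rw [← h.tdt, mul_assoc, h.tt, mul_one]
        calc d⁻¹ * (t * q * t⁻¹) * d⁻¹⁻¹ = (d⁻¹ * t) * q * (d⁻¹ * t)⁻¹ := by group
          _ = (t * d) * q * (t * d)⁻¹ := by rw [e]
          _ = t * (d * q * d⁻¹) * t⁻¹ := by group
      rw [show d * (d⁻¹ * (t * q * t⁻¹) * d⁻¹⁻¹) * d⁻¹ = t * q * t⁻¹ by group, e1,
        show t * (d * q * d⁻¹) * t⁻¹ * (t * q * t⁻¹) = t * ((d * q * d⁻¹) * q) * t⁻¹ by group,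
        h.comm _ (hQn.conj_mem _ q.2 d) _ q.2]
    have hdk : ∀ j : ℕ, ∀ x ∈ E, d ^ j * x * (d ^ j)⁻¹ ∈ E := by
      intro j
      induction j with
      | zero => intro x hx; simpa using hx
      | succ j ih =>
        intro x hx
        rw [pow_succ', show d * d ^ j * x * (d * d ^ j)⁻¹ = d * (d ^ j * x * (d ^ j)⁻¹) * d⁻¹ by group]
        exact hde _ (ih x hx)
    have hqe : ∀ q ∈ Q, ∀ x ∈ E, q * x * q⁻¹ = x := fun q hq x hx => by
      rw [h.comm q hq x (hEQ hx), mul_inv_cancel_right]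
    obtain ⟨q, hq, j, rfl | rfl⟩ := h.dec k
    · rw [show q * d ^ j * x * (q * d ^ j)⁻¹ = q * (d ^ j * x * (d ^ j)⁻¹) * q⁻¹ by group, hqe q hq _ (hdk j x hx)]
      exact hdk j x hx
    · rw [show q * d ^ j * t * x * (q * d ^ j * t)⁻¹ = q * (d ^ j * (t * x * t⁻¹) * (d ^ j)⁻¹) * q⁻¹ by group,
        hqe q hq _ (hdk j _ (hte x hx))]
      exact hdk j _ (hte x hx)
  set H₀ := E ⊔ S with hH₀
  have hES : H₀ ≤ normalizer (H₀ : Set K) := le_normalizer
  have hH₀n : H₀.Normal := by
    refine normalizer_eq_top_iff.mp (top_le_iff.mp fun k _ => ?_)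
    have hCN : C ≤ normalizer (H₀ : Set K) := fun c hc => mem_normalizer_iff.mpr fun z => by
      rw [← hcen c hc z, mul_inv_cancel_right]
    have hQN : Q ≤ normalizer (H₀ : Set K) := fun q hq => by
      obtain ⟨e, he, c, hc, rfl⟩ := hdec' q hq
      exact mul_mem (hES (mem_sup_left he)) (hCN hc)
    obtain ⟨q, hq, j, rfl | rfl⟩ := h.dec k
    · exact mul_mem (hQN hq) (hES (mem_sup_right (pow_mem hdS j)))
    · exact mul_mem (mul_mem (hQN hq) (hES (mem_sup_right (pow_mem hdS j)))) (hES (mem_sup_right htS))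
  have hH₀Q : ∀ x ∈ H₀, x ∈ Q → x ∈ E := by
    intro x hx hxQ
    rw [hH₀, Subgroup.mem_sup_of_normal_left] at hx
    obtain ⟨e, he, s', hs', rfl⟩ := hx
    have hsQ : s' ∈ Q := by
      have := mul_mem (inv_mem (hEQ he)) hxQ
      rwa [inv_mul_cancel_left] at this
    obtain ⟨j, rfl | rfl⟩ := hSform s' hs'
    · rw [h.eq_one_of_pow_mem j hsQ, mul_one]; exact he
    · exact absurd (by rwa [one_mul]) (h.notMem_cyclic j (one_mem Q))
  -- the normalizer of the cyclic part
  set M := normalizer (zpowers d : Set K) with hM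
  have hdM : d ∈ M := le_normalizer (mem_zpowers d)
  have htM : t ∈ M := by
    have hle : zpowers d ≤ (zpowers d).map (MulAut.conj t).toMonoidHom := by
      rw [zpowers_le]
      exact ⟨d⁻¹, inv_mem (mem_zpowers d), by
        show t * d⁻¹ * t⁻¹ = d
        rw [h.tinv, ← h.tdt]
        simp only [mul_assoc, h.tt, mul_one]
        rw [← mul_assoc, h.tt, one_mul]⟩
    have heq := (eq_of_le_of_card_ge hle (le_of_eq (card_map_of_injective (MulAut.conj t).injective))).symm
    refine mem_normalizer_iff.mpr fun z => ?_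
    constructor
    · exact fun hz => heq.le ⟨z, hz, rfl⟩
    · intro hz
      obtain ⟨w, hw, hwz⟩ := heq.ge hz
      exact (MulAut.conj t).injective hwz ▸ hw
  have hMQ : ∀ q, q ∈ M → q ∈ Q → q ∈ C := by
    intro q hqM hq
    refine (hmemC q).mpr ⟨hq, ?_⟩
    have h1 : q * d * q⁻¹ * d⁻¹ ∈ zpowers d :=
      mul_mem ((mem_normalizer_iff.mp hqM d).mp (mem_zpowers d)) (inv_mem (mem_zpowers d))
    obtain ⟨i, hi⟩ := exists_pow h1
    have h2 : d ^ i ∈ Q := by
      rw [show d ^ i = q * d * q⁻¹ * d⁻¹ from hi, show q * d * q⁻¹ * d⁻¹ = q * (d * q⁻¹ * d⁻¹) by group]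
      exact mul_mem hq (hQn.conj_mem _ (inv_mem hq) d)
    have h3 := h.eq_one_of_pow_mem i h2
    rw [show d ^ i = q * d * q⁻¹ * d⁻¹ from hi, mul_inv_eq_one, mul_inv_eq_iff_eq_mul] at h3
    exact h3.symm
  have hCM : C ≤ M := fun c hc => mem_normalizer_iff.mpr fun z => by
    rw [← hcen c hc z, mul_inv_cancel_right]
  have hindex : ∀ N : Subgroup K, d ∈ N → t ∈ N → N.index * Nat.card ↥(Q ⊓ N) = Nat.card ↥Q := by
    intro N hdN htN
    have htop : N ⊔ Q = ⊤ := top_le_iff.mp fun k _ => by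
      obtain ⟨q, hq, j, rfl | rfl⟩ := h.dec k
      · exact mul_mem (mem_sup_right hq) (mem_sup_left (pow_mem hdN j))
      · exact mul_mem (mul_mem (mem_sup_right hq) (mem_sup_left (pow_mem hdN j))) (mem_sup_left htN)
    have h1 : Q.relIndex N = Q.index := by
      rw [← relIndex_sup_right (H := N) (K := Q), htop, relIndex_top_right]
    have h2 : (Q ⊓ N).relIndex N * Nat.card ↥(Q ⊓ N) = Nat.card N := by
      rw [← relIndex_bot_left (Q ⊓ N), ← relIndex_bot_left N, mul_comm]
      exact relIndex_mul_relIndex _ _ _ bot_le inf_le_right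
    rw [inf_relIndex_right, h1] at h2
    have h3 : Q.index * Nat.card ↥Q = Q.index * (N.index * Nat.card ↥(Q ⊓ N)) := by
      calc Q.index * Nat.card ↥Q = Nat.card K := index_mul_card Q
        _ = N.index * Nat.card N := (index_mul_card N).symm
        _ = _ := by rw [← h2]; ring
    exact (Nat.eq_of_mul_eq_mul_left (Nat.pos_of_ne_zero index_ne_zero_of_finite) h3).symm
  have hM4 : M.index = 4 := by
    have h1 := hindex M hdM htM
    rw [show Q ⊓ M = C from le_antisymm (fun x hx => hMQ x hx.2 hx.1) (le_inf hCle hCM)] at h1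
    exact Nat.eq_of_mul_eq_mul_right Nat.card_pos (h1.trans (by rw [hQ, ← hCcard, mul_comm]))
  have hH₀i : H₀.index = Nat.card ↥C := by
    have h1 := hindex H₀ (mem_sup_right hdS) (mem_sup_right htS)
    rw [show Q ⊓ H₀ = E from le_antisymm (fun x hx => hH₀Q x hx.2 hx.1) (le_inf hEQ le_sup_left), hC4] at h1
    exact Nat.eq_of_mul_eq_mul_right (by norm_num : 0 < 4) (h1.trans (by rw [hQ, ← hCcard]))
  -- the homomorphism
  let Ψ : K →* Equiv.Perm (K ⧸ M) × (K ⧸ H₀) := (MulAction.toPermHom K (K ⧸ M)).prod (QuotientGroup.mk' H₀)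
  set T := Ψ.ker with hT
  have hTle : ∀ k ∈ T, (∀ z, z⁻¹ * k * z ∈ M) ∧ k ∈ H₀ := by
    intro k hk
    rw [hT, MonoidHom.mem_ker, Prod.ext_iff] at hk
    refine ⟨fun z => ?_, (QuotientGroup.eq_one_iff k).mp hk.2⟩
    have h1 := Equiv.congr_fun hk.1 (z : K ⧸ M)
    have h2 : ((k * z : K) : K ⧸ M) = (z : K ⧸ M) := h1
    have h3 := M.inv_mem (QuotientGroup.eq.mp h2)
    rwa [show ((k * z)⁻¹ * z)⁻¹ = z⁻¹ * k * z by group] at h3
  have hTC : ∀ k ∈ T, ∀ q ∈ Q, k * q = q * k := by
    intro k hk q hq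
    have hTn : T.Normal := MonoidHom.normal_ker Ψ
    have h1 : k * q * k⁻¹ * q⁻¹ ∈ T := by
      rw [show k * q * k⁻¹ * q⁻¹ = k * (q * k⁻¹ * q⁻¹) by group]
      exact T.mul_mem hk (hTn.conj_mem _ (T.inv_mem hk) q)
    have h2 : k * q * k⁻¹ * q⁻¹ ∈ Q := Q.mul_mem (hQn.conj_mem q hq k) (Q.inv_mem hq)
    have h3 : k * q * k⁻¹ * q⁻¹ = 1 := hEC _ (hH₀Q _ (hTle _ h1).2 h2)
      (hMQ _ (by simpa using (hTle _ h1).1 1) h2)
    exact mul_inv_eq_iff_eq_mul.mp (mul_inv_eq_one.mp h3)
  have hTd : T ≤ zpowers d ∧ d ∉ T := by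
    refine ⟨fun k hk => ?_, fun hdT => ?_⟩
    · obtain ⟨q, hq, j, rfl | rfl⟩ := h.dec k
      · have hq1 : q = 1 := by
          refine hEC q ?_ ?_
          · refine hH₀Q q ?_ hq
            have := H₀.mul_mem (hTle _ hk).2 (H₀.inv_mem (mem_sup_right (pow_mem hdS j)))
            rwa [mul_inv_cancel_right] at this
          · refine hMQ q ?_ hq
            have := M.mul_mem (by simpa using (hTle _ hk).1 1) (M.inv_mem (pow_mem hdM j))
            rwa [mul_inv_cancel_right] at this
        rw [hq1, one_mul]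
        exact pow_mem (mem_zpowers d) j
      · exfalso
        obtain ⟨q', hq', hne⟩ := hnt
        have hcj : ∀ x ∈ Q, t * x * t⁻¹ = (d ^ j)⁻¹ * x * d ^ j := fun x hx => by
          have h1 := hTC _ hk x hx
          have h4 : d ^ j * (t * x * t⁻¹) * (d ^ j)⁻¹ = q⁻¹ * x * q := by
            calc d ^ j * (t * x * t⁻¹) * (d ^ j)⁻¹ = q⁻¹ * (q * d ^ j * t * x) * (q * d ^ j * t)⁻¹ * q := by group
              _ = q⁻¹ * (x * (q * d ^ j * t)) * (q * d ^ j * t)⁻¹ * q := by rw [h1]
              _ = _ := by group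
          rw [show q⁻¹ * x * q = x by rw [h.comm _ (inv_mem hq) x hx, inv_mul_cancel_right]] at h4
          calc t * x * t⁻¹ = (d ^ j)⁻¹ * (d ^ j * (t * x * t⁻¹) * (d ^ j)⁻¹) * d ^ j := by group
            _ = _ := by rw [h4]
        -- `d ^ j` centralizes `Q`, so does `t`, so does `d`
        have hdj : ∀ x ∈ Q, d ^ j * x = x * d ^ j := by
          intro x hx
          have h2 : ((d ^ j)⁻¹ * (d ^ j)⁻¹) * x * (d ^ j * d ^ j) = x := by
            have e1 := hcj x hx
            have e2 := hcj _ (e1 ▸ hQn.conj_mem x hx t)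
            rw [show t * ((d ^ j)⁻¹ * x * d ^ j) * t⁻¹ = t * (t * x * t⁻¹) * t⁻¹ by rw [e1]] at e2
            rw [show t * (t * x * t⁻¹) * t⁻¹ = x by
              rw [h.tinv, ← mul_assoc, ← mul_assoc, h.tt, one_mul, mul_assoc, h.tt, mul_one]] at e2
            calc _ = (d ^ j)⁻¹ * ((d ^ j)⁻¹ * x * d ^ j) * d ^ j := by group
              _ = x := e2.symm
          have hc : Commute x (d ^ j * d ^ j) := by
            show x * (d ^ j * d ^ j) = d ^ j * d ^ j * x
            nth_rw 2 [← h2]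
            group
          obtain ⟨i, hi⟩ := h.odd
          have hj2 : d ^ j = (d ^ j * d ^ j) ^ (i + 1) := by
            rw [← pow_add, ← pow_mul, show (j + j) * (i + 1) = orderOf d * j + j by rw [hi]; ring, pow_add,
              pow_mul, pow_orderOf_eq_one, one_pow, one_mul]
          rw [hj2]
          exact (hc.pow_right _).eq.symm
        have hq'' : t * q' * t⁻¹ = q' := by
          rw [hcj q' hq', mul_assoc, ← hdj q' hq', inv_mul_cancel_left]
        have hd' : t * (d * q' * d⁻¹) * t⁻¹ = d * q' * d⁻¹ := by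
          have hx := hQn.conj_mem q' hq' d
          rw [hcj _ hx, mul_assoc, ← hdj _ hx, inv_mul_cancel_left]
        apply hne
        have h5 : d⁻¹ * q' * d = d * q' * d⁻¹ := by
          rw [← hd']
          have e : t * (d * q' * d⁻¹) * t⁻¹ = (t * d * t⁻¹) * (t * q' * t⁻¹) * (t * d * t⁻¹)⁻¹ := by group
          rw [e, hq'', h.tinv, h.tdt, inv_inv]
        have hc2 : Commute q' (d * d) := by
          show q' * (d * d) = d * d * q'
          calc q' * (d * d) = d * (d⁻¹ * q' * d) * d := by group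
            _ = d * (d * q' * d⁻¹) * d := by rw [h5]
            _ = _ := by group
        obtain ⟨i, hi⟩ := h.odd
        have : d = (d * d) ^ (i + 1) := by
          rw [← pow_two, ← pow_mul, show 2 * (i + 1) = orderOf d + 1 by omega, pow_succ, pow_orderOf_eq_one, one_mul]
        rw [this]
        exact ((hc2.pow_right _).eq).symm
    · obtain ⟨q', hq', hne⟩ := hnt
      exact hne (hTC d hdT q' hq')
  -- the order
  have hTodd : ¬ 2 ∣ Nat.card T := fun h2 => h.not_two_dvd_zpowers (h2.trans (card_dvd_of_le hTd.1))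
  have h3T : 3 * Nat.card T ≤ orderOf d := by
    obtain ⟨k, hk⟩ := card_dvd_of_le hTd.1
    rw [Nat.card_zpowers] at hk
    have hk1 : k ≠ 1 := fun e => hTd.2 (by
      rw [eq_of_le_of_card_ge hTd.1 (by rw [Nat.card_zpowers, hk, e, mul_one])]
      exact mem_zpowers d)
    have hk2 : ¬ 2 ∣ k := fun h2 => h.odd.not_two_dvd_nat (hk ▸ h2.trans (dvd_mul_left k _))
    have hk0 : k ≠ 0 := fun e => hk2 (e ▸ dvd_zero 2)
    rw [hk, mul_comm]
    exact Nat.mul_le_mul_left _ (by omega)
  have hKcard : Nat.card ↥Q * orderOf d * 2 ≤ Nat.card K := by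
    let F : ↥Q × ↥(zpowers d) × Bool → K := fun p => (p.1 : K) * (p.2.1 : K) * cond p.2.2 t 1
    have hF : Function.Injective F := by
      rintro ⟨a, x, u⟩ ⟨b, y, v⟩ e
      obtain ⟨i, hi⟩ := exists_pow ((zpowers d).mul_mem ((zpowers d).inv_mem x.2) y.2)
      have hi' : d ^ i = (x : K)⁻¹ * y := hi
      have e' : (a : K) * x * cond u t 1 = b * y * cond v t 1 := e
      have hab : ((b : K)⁻¹ * a) ∈ Q := mul_mem (inv_mem b.2) a.2
      have hx : (x : K)⁻¹ * ((b : K)⁻¹ * a) * x ∈ Q := by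
        have := hQn.conj_mem _ hab (x : K)⁻¹
        rwa [inv_inv] at this
      have key : (x : K)⁻¹ * ((b : K)⁻¹ * a) * x * cond u t 1 = d ^ i * cond v t 1 := by
        rw [hi']
        calc (x : K)⁻¹ * ((b : K)⁻¹ * a) * x * cond u t 1 = (x : K)⁻¹ * (b : K)⁻¹ * ((a : K) * x * cond u t 1) := by
              group
          _ = (x : K)⁻¹ * (b : K)⁻¹ * ((b : K) * y * cond v t 1) := by rw [e']
          _ = _ := by group
      have huv : u = v := by
        cases u <;> cases v <;> simp only [cond_true, cond_false, mul_one] at key <;> try rfl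
        · exact absurd (by rw [one_mul, ← key]; exact hx) (h.notMem_cyclic i (one_mem Q))
        · exfalso
          have h6 : d ^ i = (x : K)⁻¹ * ((b : K)⁻¹ * a) * x * t := key.symm
          refine h.notMem_cyclic i (one_mem Q) ?_
          rw [one_mul, h6, mul_assoc _ t t, h.tt, mul_one]
          exact hx
      subst huv
      have key' : (x : K)⁻¹ * ((b : K)⁻¹ * a) * x = d ^ i := mul_right_cancel key
      have h7 : d ^ i = 1 := h.eq_one_of_pow_mem i (key' ▸ hx)
      have hxy : x = y := Subtype.ext (inv_mul_eq_one.mp (hi'.symm.trans h7))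
      subst hxy
      have hab' : a = b := Subtype.ext (mul_right_cancel (mul_right_cancel e'))
      subst hab'
      rfl
    have := Nat.card_le_card_of_injective F hF
    rwa [Nat.card_prod, Nat.card_prod, Nat.card_zpowers, Nat.card_eq_fintype_card (α := Bool), Fintype.card_bool,
      ← Nat.mul_assoc] at this
  have hsurj : Function.Surjective Ψ := by
    rw [← MonoidHom.range_eq_top]
    apply eq_top_of_le_card
    have hcod : Nat.card (Equiv.Perm (K ⧸ M) × (K ⧸ H₀)) = 24 * Nat.card ↥C := by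
      rw [Nat.card_prod, Nat.card_perm, ← index_eq_card, hM4, ← index_eq_card, hH₀i]
      rfl
    have h1 := card_eq_card_quotient_mul_card_subgroup Ψ.ker
    rw [Nat.card_congr (QuotientGroup.quotientKerEquivRange Ψ).toEquiv] at h1
    rw [h1, hQ, ← hCcard] at hKcard
    rw [hcod]
    refine Nat.le_of_mul_le_mul_right (le_trans ?_ hKcard) (Nat.card_pos (α := ↥T))
    calc 24 * Nat.card ↥C * Nat.card ↥T = Nat.card ↥C * 4 * (3 * Nat.card ↥T) * 2 := by ring
      _ ≤ Nat.card ↥C * 4 * orderOf d * 2 := by gcongr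
  have hO : Cfsg.oddCore K = T := by
    refine oddCore_eq (MonoidHom.normal_ker Ψ) hTodd fun k hk => ?_
    -- an odd normal subgroup centralizes `Q` and lies in every conjugate of `M`
    haveI hOn : (Cfsg.oddCore K).Normal :=
      haveI := CfsgLib.PCore.pPrimeCore_characteristic 2 K
      inferInstance
    have hcop : Cfsg.oddCore K ⊓ Q = ⊥ := by
      rw [eq_bot_iff]
      intro x hx
      rw [mem_bot, ← orderOf_eq_one_iff]
      have h1 : orderOf x ∣ 2 := orderOf_dvd_of_pow_eq_one (by rw [pow_two]; exact h.sq x hx.2)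
      have h2 := orderOf_dvd_natCard (⟨x, hx.1⟩ : ↥(Cfsg.oddCore K))
      rw [Subgroup.orderOf_mk] at h2
      rcases (Nat.dvd_prime Nat.prime_two).mp h1 with e | e
      · exact e
      · rw [e] at h2; exact absurd h2 (CfsgLib.PCore.not_dvd_card_pPrimeCore 2 K)
    have hOQ : ∀ x ∈ Cfsg.oddCore K, ∀ q ∈ Q, x * q = q * x := fun x hx q hq => by
      have hm : x * q * x⁻¹ * q⁻¹ ∈ Cfsg.oddCore K ⊓ Q :=
        ⟨by
          rw [show x * q * x⁻¹ * q⁻¹ = x * (q * x⁻¹ * q⁻¹) by group]
          exact Subgroup.mul_mem _ hx (hOn.conj_mem _ (Subgroup.inv_mem _ hx) q),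
         Q.mul_mem (hQn.conj_mem q hq x) (Q.inv_mem hq)⟩
      rw [hcop, mem_bot] at hm
      exact mul_inv_eq_iff_eq_mul.mp (mul_inv_eq_one.mp hm)
    have hmem : ∀ x ∈ Cfsg.oddCore K, x ∈ zpowers d := by
      intro x hx
      have hodd : Odd (orderOf x) := by
        rw [← Nat.not_even_iff_odd, even_iff_two_dvd]
        intro h2
        have h3 := orderOf_dvd_natCard (⟨x, hx⟩ : ↥(Cfsg.oddCore K))
        rw [Subgroup.orderOf_mk] at h3
        exact (CfsgLib.PCore.not_dvd_card_pPrimeCore 2 K) (h2.trans h3)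
      obtain ⟨i, hi⟩ := hodd
      obtain ⟨q, hq, j, rfl | rfl⟩ := h.dec x
      · have hdq : Commute q (d ^ j) := by
          have := hOQ _ hx q hq
          show q * d ^ j = d ^ j * q
          refine mul_left_cancel (a := q) ?_
          calc q * (q * d ^ j) = q * (q * d ^ j) := rfl
            _ = q * d ^ j * q := this.symm
            _ = q * (d ^ j * q) := mul_assoc _ _ _
        have h4 := pow_orderOf_eq_one (q * d ^ j)
        rw [hdq.mul_pow, hi, pow_add, pow_mul, pow_two, h.sq q hq, one_pow, one_mul, pow_one, ← hi] at h4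
        rw [eq_inv_of_mul_eq_one_left h4, ← eq_inv_of_mul_eq_one_left h4]
        have : q ∈ zpowers d := by
          rw [eq_inv_of_mul_eq_one_left h4]
          exact inv_mem (pow_mem (pow_mem (mem_zpowers d) j) _)
        exact mul_mem this (pow_mem (mem_zpowers d) j)
      · exfalso
        have hsq : (q * d ^ j * t) * (q * d ^ j * t) ∈ Q := by
          rw [show q * d ^ j * t * (q * d ^ j * t) = q * (d ^ j * t * q * (d ^ j * t)⁻¹) * (d ^ j * t * (d ^ j * t)) by
            group]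
          refine mul_mem (mul_mem hq (hQn.conj_mem q hq _)) ?_
          rw [show d ^ j * t * (d ^ j * t) = d ^ j * (t * d ^ j * t) by group, h.tdpow, mul_inv_cancel]
          exact one_mem _
        have : q * d ^ j * t = ((q * d ^ j * t) * (q * d ^ j * t)) ^ (i + 1) := by
          rw [← pow_two, ← pow_mul, show 2 * (i + 1) = orderOf (q * d ^ j * t) + 1 by omega, pow_succ,
            pow_orderOf_eq_one, one_mul]
        exact h.notMem_cyclic j hq (this ▸ pow_mem hsq _)
    rw [hT, MonoidHom.mem_ker]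
    refine Prod.ext (Equiv.ext fun z => ?_) ?_
    · obtain ⟨z, rfl⟩ := QuotientGroup.mk_surjective z
      show ((k * z : K) : K ⧸ M) = (z : K ⧸ M)
      rw [QuotientGroup.eq]
      have h5 : z⁻¹ * k * z ∈ M := le_normalizer (hmem _ (by simpa using hOn.conj_mem k hk z⁻¹))
      have := M.inv_mem h5
      rwa [show (z⁻¹ * k * z)⁻¹ = (k * z)⁻¹ * z by group] at this
    · exact (QuotientGroup.eq_one_iff k).mpr (mem_sup_right ((zpowers_le.mpr hdS) (hmem k hk)))
  have e₁ : K ⧸ Cfsg.oddCore K ≃* Equiv.Perm (K ⧸ M) × (K ⧸ H₀) :=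
    (QuotientGroup.quotientMulEquivOfEq hO).trans (QuotientGroup.quotientKerEquivOfSurjective Ψ hsurj)
  let e₂ : Equiv.Perm (K ⧸ M) ≃* Equiv.Perm (Fin 4) :=
    (Finite.equivFinOfCardEq (by rw [← index_eq_card, hM4])).permCongrHom
  rcases hs with rfl | rfl
  · left
    haveI : Subsingleton (K ⧸ H₀) := (Nat.card_eq_one_iff_unique.mp (by rw [← index_eq_card, hH₀i]; omega)).1
    haveI : Unique (K ⧸ H₀) := uniqueOfSubsingleton 1
    exact ⟨e₁.trans (MulEquiv.prodUnique.trans e₂)⟩
  · right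
    haveI : Fact (Nat.Prime 2) := ⟨Nat.prime_two⟩
    have h2 : Nat.card (K ⧸ H₀) = 2 := by rw [← index_eq_card, hH₀i]; omega
    haveI : IsCyclic (K ⧸ H₀) := isCyclic_of_prime_card h2
    exact ⟨e₁.trans (e₂.prodCongr (mulEquivOfCyclicCardEq (h2.trans (by simp))))⟩

end CfsgLib.DihedralPush
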