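import Cfsg.Agent.DihedralPush.Window
import Cfsg.Agent.DihedralPush.Structure
import Cfsg.Prelude.Def_Solvable

/-!
Dihedral quotient modulo the 2-core and an outer 2-element normalizing the Sylow 2-subgroup.
-/

set_option autoImplicit false
open Subgroup CfsgLib.CubicAmalgam
open scoped Pointwise

namespace CfsgLib.DihedralPush

variable {G : Type*} [Group G] [Finite G]

theorem rot_pow {n : ℕ} (i : ZMod n) (k : ℕ) :
    (DihedralGroup.r i : DihedralGroup n) ^ k = DihedralGroup.r ((k : ZMod n) * i) := by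
  induction k with
  | zero => rw [pow_zero, Nat.cast_zero, zero_mul]; rfl
  | succ k ih => rw [pow_succ, ih, DihedralGroup.r_mul_r]; congr 1; push_cast; ring

theorem odd_of_core {K : Type*} [Group K] [Finite K] {n : ℕ} (hn : 2 ≤ n) (φ : K →* DihedralGroup n)
    (hφ : Function.Surjective φ) (hker : φ.ker = Cfsg.pCore 2 K) : Odd n := by
  haveI : Fact (Nat.Prime 2) := ⟨Nat.prime_two⟩
  rw [← Nat.not_even_iff_odd]
  rintro ⟨k, hk⟩
  set c : DihedralGroup n := DihedralGroup.r (k : ZMod n) with hc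
  have hkk : (k : ZMod n) + k = 0 := by rw [← Nat.cast_add, ← hk, ZMod.natCast_self]
  have hcc : c * c = 1 := by rw [hc, DihedralGroup.r_mul_r, hkk, DihedralGroup.one_def]
  have hcen : ∀ x : DihedralGroup n, x * c = c * x := by
    rintro (i | i)
    · rw [hc, DihedralGroup.r_mul_r, DihedralGroup.r_mul_r, add_comm]
    · rw [hc, DihedralGroup.sr_mul_r, DihedralGroup.r_mul_sr]
      congr 1
      rw [eq_sub_iff_add_eq, add_assoc, hkk, add_zero]
  have hne : c ≠ 1 := by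
    rw [hc, DihedralGroup.one_def, Ne, DihedralGroup.r.injEq, ZMod.natCast_eq_zero_iff]
    intro h
    have := Nat.le_of_dvd (by omega) h
    omega
  set N := (zpowers c).comap φ with hN
  have hzn : (zpowers c).Normal := ⟨fun x hx g => by
    obtain ⟨z, rfl⟩ := mem_zpowers_iff.mp hx
    rw [(show Commute g c from hcen g).zpow_right z |>.eq, mul_inv_cancel_right]
    exact zpow_mem (mem_zpowers c) z⟩
  have hNn : N.Normal := hzn.comap φ
  have hp : IsPGroup 2 ↥(zpowers c) := by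
    refine IsPGroup.of_card (n := 1) ?_
    rw [Nat.card_zpowers, pow_one, orderOf_eq_prime (by rw [pow_two, hcc]) hne]
  have hNp : IsPGroup 2 ↥N :=
    hp.comap_of_ker_isPGroup φ (hker ▸ CfsgLib.PCore.isPGroup_pCore 2 K)
  obtain ⟨x, hx⟩ := hφ c
  have hxN : x ∈ N := by rw [hN, mem_comap, hx]; exact mem_zpowers c
  have hxQ : x ∈ φ.ker := hker ▸ CfsgLib.PCore.le_pCore hNn hNp hxN
  rw [MonoidHom.mem_ker, hx] at hxQ
  exact hne hxQ

theorem main (H : Subgroup G) (hO : Cfsg.pCore 2 ↥H ≠ ⊥) (n : ℕ) (hn : 2 ≤ n)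
    (hdih : Nonempty (↥H ⧸ Cfsg.pCore 2 ↥H ≃* DihedralGroup n))
    (P : Subgroup G) (hPH : P ≤ H) (hP : IsPGroup 2 P) (hPsyl : ¬ 2 ∣ P.relIndex H)
    (y : G) (hy2 : y ^ 2 ∈ P ⊔ centralizer (P : Set G)) (hyN : MulAut.conj y • P = P)
    (hyQ : ∀ Q : Subgroup G, Q ≤ P → (Q.subgroupOf H).Normal → MulAut.conj y • Q = Q → Q = ⊥) :
    (Nat.card P = 4 ∨ Nat.card P = 8 ∨ Nat.card P = 16) ∧
    (Nonempty (↥H ⧸ Cfsg.oddCore ↥H ≃* Multiplicative (ZMod 2) × Multiplicative (ZMod 2)) ∨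
     Nonempty (↥H ⧸ Cfsg.oddCore ↥H ≃* Equiv.Perm (Fin 4)) ∨
     Nonempty (↥H ⧸ Cfsg.oddCore ↥H ≃* Equiv.Perm (Fin 4) × Multiplicative (ZMod 2))) := by
  classical
  haveI : Fact (Nat.Prime 2) := ⟨Nat.prime_two⟩
  haveI : NeZero n := ⟨by omega⟩
  haveI hQ0n : (Cfsg.pCore 2 ↥H).Normal :=
    haveI := CfsgLib.PCore.pCore_characteristic 2 ↥H
    inferInstance
  obtain ⟨e⟩ := hdih
  set Q₀ := Cfsg.pCore 2 ↥H with hQ₀
  let φ : ↥H →* DihedralGroup n := e.toMonoidHom.comp (QuotientGroup.mk' Q₀)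
  have hφ : Function.Surjective φ := e.surjective.comp (QuotientGroup.mk'_surjective Q₀)
  have hker : φ.ker = Q₀ := by
    ext x
    show e (QuotientGroup.mk' Q₀ x) = 1 ↔ _
    rw [map_eq_one_iff e e.injective]
    exact QuotientGroup.eq_one_iff x
  have hodd : Odd n := odd_of_core hn φ hφ hker
  have h2cop : Nat.Coprime 2 n := Nat.coprime_two_left.mpr hodd
  have hn3 : 3 ≤ n := by obtain ⟨k, hk⟩ := hodd; omega
  -- orders
  set Q := Q₀.map H.subtype with hQdef
  have hQcard : Nat.card Q = Nat.card Q₀ := card_map_of_injective H.subtype_injective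
  have hQH : Q ≤ H := map_subtype_le Q₀
  set S := P.subgroupOf H with hS
  have hScard : Nat.card S = Nat.card P := Nat.card_congr (subgroupOfEquivOfLe hPH).toEquiv
  have hSp : IsPGroup 2 S := hP.of_equiv (subgroupOfEquivOfLe hPH).symm
  have hQ₀S : Q₀ ≤ S := CfsgLib.PCore.pCore_le_sylow (hSp.toSylow hPsyl)
  have hQP : Q ≤ P := by rintro _ ⟨x, hx, rfl⟩; exact hQ₀S hx
  have hHcard : Nat.card ↥H = Nat.card Q₀ * (2 * n) := by
    rw [card_eq_card_quotient_mul_card_subgroup Q₀, Nat.card_congr e.toEquiv, DihedralGroup.nat_card, mul_comm]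
  obtain ⟨a, ha⟩ := IsPGroup.iff_card.mp (CfsgLib.PCore.isPGroup_pCore 2 ↥H)
  obtain ⟨c, hc⟩ := IsPGroup.iff_card.mp hP
  have hPcard : Nat.card P = 2 * Nat.card Q := by
    have h1 : Nat.card S * S.index = Nat.card Q₀ * (2 * n) := by rw [card_mul_index, hHcard]
    rw [hScard, hc, ha] at h1
    have h2 : 2 ^ c ∣ 2 ^ a * 2 := (Nat.Coprime.pow_left c h2cop).dvd_of_dvd_mul_right
      ⟨S.index, by rw [h1]; ring⟩
    have h3 : 2 ^ a * 2 ∣ 2 ^ c := by
      have hcop : Nat.Coprime (2 ^ a * 2) S.index := by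
        rw [← pow_succ]
        exact Nat.Coprime.pow_left _ (Nat.prime_two.coprime_iff_not_dvd.mpr hPsyl)
      exact hcop.dvd_of_dvd_mul_right ⟨n, by rw [h1]; ring⟩
    rw [hc, hQcard, ha, Nat.mul_comm 2, Nat.dvd_antisymm h2 h3]
  -- an element outside the core
  obtain ⟨t₀, ht₀S, ht₀Q⟩ : ∃ x ∈ S, x ∉ Q₀ := by
    by_contra hcon
    push Not at hcon
    have := card_le_of_le (fun x hx => hcon x hx : S ≤ Q₀)
    rw [hScard, hPcard, hQcard] at this
    have : 0 < Nat.card Q₀ := Nat.card_pos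
    omega
  have hS2 : Nat.card S = 2 * Nat.card Q₀ := by rw [hScard, hPcard, hQcard]
  obtain ⟨s, hs⟩ : ∃ s, φ t₀ = DihedralGroup.sr s := by
    have hne : φ t₀ ≠ 1 := fun h => ht₀Q (hker ▸ MonoidHom.mem_ker.mpr h)
    have hsq : φ t₀ * φ t₀ = 1 := by
      rw [← map_mul]
      refine MonoidHom.mem_ker.mp (hker.symm ▸ ?_)
      by_contra hcon
      exact hcon (mul_mem_of_two hQ₀S hS2 ht₀S ht₀S ht₀Q ht₀Q)
    rcases hφt : φ t₀ with i | i
    · exfalso
      rw [hφt, DihedralGroup.r_mul_r, DihedralGroup.one_def, DihedralGroup.r.injEq] at hsq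
      rw [hφt, Ne, DihedralGroup.one_def, DihedralGroup.r.injEq] at hne
      apply hne
      have h2 : IsUnit ((2 : ℕ) : ZMod n) := (ZMod.unitOfCoprime 2 h2cop).isUnit
      refine h2.mul_right_eq_zero.mp ?_
      rw [Nat.cast_two, two_mul, hsq]
    · exact ⟨i, rfl⟩
  obtain ⟨d₀, hd₀⟩ := hφ (DihedralGroup.r 1)
  set h₀ : G := (d₀ : G) with hh₀
  set g := h₀ * y with hg
  have hcjy : cj y P = P := hyN
  have hcjg : cj g P = cj h₀ P := by rw [hg, cj_mul, hcjy]
  have hQn : H ≤ normalizer (Q : Set G) := by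
    intro x hx
    refine mem_normalizer_of_le fun z hz => ?_
    obtain ⟨z, hz', rfl⟩ := hz
    exact ⟨⟨x, hx⟩ * z * ⟨x, hx⟩⁻¹, hQ0n.conj_mem z hz' ⟨x, hx⟩, rfl⟩
  have himage : ∀ x ∈ S, φ x = 1 ∨ φ x = DihedralGroup.sr s := by
    intro x hx
    by_cases hxQ : x ∈ Q₀
    · exact Or.inl (MonoidHom.mem_ker.mp (hker ▸ hxQ))
    · refine Or.inr ?_
      have := hker ▸ mul_mem_of_two hQ₀S hS2 ht₀S hx ht₀Q hxQ
      rw [MonoidHom.mem_ker, map_mul, hs, mul_eq_one_iff_inv_eq, DihedralGroup.inv_sr] at this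
      exact this.symm
  have hP1H : cj h₀ P ≤ H := by
    rintro _ ⟨x, hx, rfl⟩
    exact H.mul_mem (H.mul_mem d₀.2 (hPH hx)) (H.inv_mem d₀.2)
  have hne2 : (DihedralGroup.sr (s - 2) : DihedralGroup n) ≠ DihedralGroup.sr s := by
    rw [Ne, DihedralGroup.sr.injEq, sub_eq_self, ← Nat.cast_two, ZMod.natCast_eq_zero_iff]
    intro h
    have := Nat.le_of_dvd two_pos h
    omega
  have hrot : (DihedralGroup.r (1 : ZMod n)) * DihedralGroup.sr s * (DihedralGroup.r (1 : ZMod n))⁻¹ =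
      DihedralGroup.sr (s - 2) := by
    rw [DihedralGroup.inv_r, DihedralGroup.r_mul_sr, DihedralGroup.sr_mul_r]
    congr 1
    ring
  have hinf : P ⊓ cj g P = Q := by
    rw [hcjg]
    refine le_antisymm ?_ (le_inf hQP ?_)
    · rintro x ⟨hx, hx'⟩
      have hxH := hPH hx
      refine ⟨⟨x, hxH⟩, hker ▸ MonoidHom.mem_ker.mpr ?_, rfl⟩
      obtain ⟨z, hz, hzx⟩ := hx'
      have hzS : (⟨z, hPH hz⟩ : ↥H) ∈ S := hz
      have hx_eq : (⟨x, hxH⟩ : ↥H) = d₀ * ⟨z, hPH hz⟩ * d₀⁻¹ := Subtype.ext hzx.symm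
      rcases himage ⟨x, hxH⟩ hx with e1 | e1
      · exact e1
      · exfalso
        rw [hx_eq, map_mul, map_mul, map_inv, hd₀] at e1
        rcases himage _ hzS with e2 | e2
        · rw [e2, mul_one, mul_inv_cancel, DihedralGroup.one_def] at e1
          cases e1
        · rw [e2, hrot] at e1
          exact hne2 e1
    · rw [← cj_eq_self (hQn d₀.2)]
      exact cj_mono hQP
  have hgen : P ⊔ cj g P = H := by
    rw [hcjg]
    refine le_antisymm (sup_le hPH hP1H) ?_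
    set J := (P ⊔ cj h₀ P).subgroupOf H with hJ
    have hJQ : Q₀ ≤ J := fun x hx => mem_sup_left (hQ₀S hx)
    have ht₀J : t₀ ∈ J := mem_sup_left ht₀S
    have ht₁J : d₀ * t₀ * d₀⁻¹ ∈ J := mem_sup_right ⟨_, ht₀S, rfl⟩
    have hr : DihedralGroup.r (1 : ZMod n) ∈ J.map φ := by
      have h1 : DihedralGroup.r ((s - (s - 2) : ZMod n)) ∈ J.map φ := by
        refine ⟨(d₀ * t₀ * d₀⁻¹) * t₀, mul_mem ht₁J ht₀J, ?_⟩
        rw [map_mul, map_mul, map_mul, map_inv, hd₀, hs, hrot, DihedralGroup.sr_mul_sr]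
      rw [sub_sub_cancel] at h1
      obtain ⟨k, hk⟩ := hodd
      have := pow_mem h1 (k + 1)
      rw [rot_pow] at this
      have e2 : ((k + 1 : ℕ) : ZMod n) * 2 = 1 := by
        rw [← Nat.cast_two, ← Nat.cast_mul, show (k + 1) * 2 = n + 1 by omega, Nat.cast_add, ZMod.natCast_self,
          zero_add, Nat.cast_one]
      rwa [e2] at this
    intro x hx
    have hxJ : (⟨x, hx⟩ : ↥H) ∈ J := by
      have hall : φ ⟨x, hx⟩ ∈ J.map φ := by
        rcases φ ⟨x, hx⟩ with i | i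
        · have := pow_mem hr i.val
          rw [rot_pow, mul_one, ZMod.natCast_val, ZMod.cast_id] at this
          exact this
        · have h2 := mul_mem (⟨t₀, ht₀J, hs⟩ : DihedralGroup.sr s ∈ J.map φ) (pow_mem hr (i - s).val)
          rw [rot_pow, mul_one, ZMod.natCast_val, ZMod.cast_id, DihedralGroup.sr_mul_r, add_sub_cancel] at h2
          exact h2
      have h3 : (⟨x, hx⟩ : ↥H) ∈ (J.map φ).comap φ := hall
      rwa [comap_map_eq, hker, sup_eq_left.mpr hJQ] at h3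
    exact hxJ
  -- invariance of subgroups normalized by `P`
  have hy2fix : ∀ T : Subgroup G, T ≤ P → P ≤ normalizer (T : Set G) → cj (y * y) T = T := by
    intro T hTP hT
    refine cj_eq_self ?_
    rw [← pow_two]
    refine sup_le hT ?_ hy2
    intro z hz
    refine mem_normalizer_iff.mpr fun w => ?_
    constructor
    · intro hw
      rwa [← mem_centralizer_iff.mp hz w (hTP hw), mul_inv_cancel_right]
    · intro hw
      have h1 := mem_centralizer_iff.mp hz _ (hTP hw)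
      rw [inv_mul_cancel_right] at h1
      rwa [← mul_left_cancel (h1.symm : z * (z * w * z⁻¹) = z * w)]
  have hcore : ∀ T ≤ P, P ≤ normalizer (T : Set G) → cj g P ≤ normalizer (T : Set G) → cj y T = T → T = ⊥ := by
    intro T hTP hT hT' hyT
    refine hyQ T hTP ?_ hyT
    exact (normal_subgroupOf_iff_le_normalizer (hTP.trans hPH)).mpr (hgen ▸ sup_le hT hT')
  have hidx : Nat.card P = 2 * Nat.card ↥(P ⊓ cj g P) := by rw [hinf, hPcard]
  have hpush : Push P g := by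
    refine ⟨hP, hidx, fun T hTP hT hgT => ?_⟩
    have hT' : cj g P ≤ normalizer (T : Set G) := by
      rintro _ ⟨x, hx, rfl⟩
      have := normalizer_cj (g := g) (hT hx)
      rwa [hgT] at this
    have hHT : H ≤ normalizer (T : Set G) := hgen ▸ sup_le hT hT'
    refine hcore T hTP hT hT' ?_
    have hfix := cj_eq_self (inv_mem (hHT d₀.2))
    calc cj y T = cj (h₀⁻¹ * g) T := by rw [hg, inv_mul_cancel_left]
      _ = T := by rw [cj_mul, hgT, hfix]
  obtain ⟨b, r, hwP, hreg⟩ := hpush.exists_chain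
  have hreg' : Regular g b r := hreg
  have hQ2 : 2 ≤ Nat.card Q := by
    have h1 : Nat.card Q₀ ≠ 1 := fun h => hO (card_eq_one.mp h)
    have h2 : 0 < Nat.card Q₀ := Nat.card_pos
    omega
  have hPr : Nat.card P = 2 ^ r := by rw [← hwP, hreg r le_rfl]
  have hr2 : 2 ≤ r := by
    by_contra hcon
    have : 2 ^ r ≤ 2 ^ 1 := Nat.pow_le_pow_right (by omega) (by omega)
    omega
  have hQwin : win g b 1 (r - 1) = Q := by
    refine eq_of_le_of_card_ge (hinf ▸ le_inf (hwP ▸ win_mono g b (Nat.zero_le _) (by omega)) ?_) ?_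
    · have := cj_win g b 0 r 1
      rw [pow_one, hwP] at this
      rw [this]
      exact win_mono g b le_rfl (by omega)
    · rw [hreg'.card 1 (by omega)]
      have h1 : 2 ^ r = 2 * 2 ^ (r - 1) := by
        rw [← pow_succ']
        congr 1
        omega
      omega
  have hPQ : P ≤ normalizer (Q : Set G) := hPH.trans hQn
  have hPQ' : P ≤ normalizer (cj y Q : Set G) := by
    intro x hx
    obtain ⟨z, hz, rfl⟩ : x ∈ cj y P := hcjy.symm ▸ hx
    exact normalizer_cj (hPQ hz)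
  have hAwin : win g b 0 (r - 1) = cj y Q := by
    have h1 : cj g (win g b 0 (r - 1)) = Q := by
      have := cj_win g b 0 (r - 1) 1
      rwa [pow_one, hQwin] at this
    have h2 : win g b 0 (r - 1) = cj g⁻¹ Q := by rw [← h1, ← cj_mul, inv_mul_cancel, cj_one]
    rw [h2, hg, mul_inv_rev, cj_mul, cj_eq_self (inv_mem (hQn d₀.2))]
    calc cj y⁻¹ Q = cj y⁻¹ (cj (y * y) Q) := by rw [hy2fix Q hQP hPQ]
      _ = cj y Q := by rw [← cj_mul, inv_mul_cancel_left]
  have hRwin : win g b 1 (r - 2) = cj y Q ⊓ Q := by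
    rw [← hAwin, ← hQwin]
    have := hreg'.inf_win (i := 0) (k := r - 2) (by omega)
    rw [show r - 2 + 1 = r - 1 by omega] at this
    exact this.symm
  have hyR : cj y (win g b 1 (r - 2)) = win g b 1 (r - 2) := by
    rw [hRwin, cj_inf, ← cj_mul, hy2fix Q hQP hPQ, inf_comm]
  have hRP : P ≤ normalizer (win g b 1 (r - 2) : Set G) := by
    intro x hx
    rw [hRwin]
    refine mem_normalizer_of_le fun z hz => ?_
    exact ⟨conj_mem_of_normalizer (hPQ' hx) hz.1, conj_mem_of_normalizer (hPQ hx) hz.2⟩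
  have hC : ∀ C ≤ P, C ≤ centralizer (P : Set G) → C ≤ centralizer (cj g P : Set G) →
      Nat.card C * Nat.card C ≤ Nat.card ↥(P ⊓ centralizer (P : Set G)) := by
    intro C hCP hC1 hC2
    have hcent : ∀ x ∈ H, ∀ z ∈ C, x * z = z * x := by
      have hle : H ≤ centralizer (C : Set G) :=
        hgen ▸ sup_le (le_centralizer_iff.mp hC1) (le_centralizer_iff.mp hC2)
      exact fun x hx z hz => (mem_centralizer_iff.mp (hle hx) z hz).symm
    have hPN : P ≤ normalizer (C : Set G) := fun x hx => mem_normalizer_of_le fun z hz => by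
      rwa [hcent x (hPH hx) z hz, mul_inv_cancel_right]
    have hW : C ⊓ cj y C = ⊥ := by
      refine hyQ _ (inf_le_left.trans hCP) ?_ ?_
      · refine ⟨fun z hz x => ?_⟩
        have h1 : x * z * x⁻¹ = z := Subtype.ext (by
          rw [Subgroup.coe_mul, Subgroup.coe_mul, Subgroup.coe_inv, hcent x x.2 (z : G) (mem_subgroupOf.mp hz).1,
            mul_inv_cancel_right])
        rwa [h1]
      · show cj y (C ⊓ cj y C) = C ⊓ cj y C
        rw [cj_inf, ← cj_mul, hy2fix C hCP hPN, inf_comm]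
    have hyC : cj y C ≤ P ⊓ centralizer (P : Set G) := by
      rintro _ ⟨z, hz, rfl⟩
      refine ⟨hcjy ▸ ⟨z, hCP hz, rfl⟩, mem_centralizer_iff.mpr fun w hw => ?_⟩
      obtain ⟨w, hw', rfl⟩ : w ∈ cj y P := hcjy.symm ▸ hw
      show y * w * y⁻¹ * (y * z * y⁻¹) = y * z * y⁻¹ * (y * w * y⁻¹)
      have := mem_centralizer_iff.mp (hC1 hz) w hw'
      rw [show y * w * y⁻¹ * (y * z * y⁻¹) = y * (w * z) * y⁻¹ by group, this]
      group
    have hinj : Function.Injective fun p : ↥C × ↥(cj y C) =>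
        (⟨p.1 * p.2, mul_mem (show (p.1 : G) ∈ P ⊓ centralizer (P : Set G) from ⟨hCP p.1.2, hC1 p.1.2⟩) (hyC p.2.2)⟩ :
          ↥(P ⊓ centralizer (P : Set G))) := by
      rintro ⟨u, v⟩ ⟨u', v'⟩ e'
      have e1 : (u : G) * v = u' * v' := congrArg Subtype.val e'
      have h1 : (u' : G)⁻¹ * u = v' * (v : G)⁻¹ := by
        rw [eq_mul_inv_iff_mul_eq, mul_assoc, e1, inv_mul_cancel_left]
      have h2 : (u' : G)⁻¹ * u ∈ C ⊓ cj y C := ⟨C.mul_mem (C.inv_mem u'.2) u.2, h1 ▸ (cj y C).mul_mem v'.2 ((cj y C).inv_mem v.2)⟩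
      rw [hW, mem_bot] at h2
      have hu : u = u' := (Subtype.ext (inv_mul_eq_one.mp h2)).symm
      subst hu
      exact Prod.ext rfl (Subtype.ext (mul_left_cancel e1))
    have := Nat.card_le_card_of_injective _ hinj
    rwa [Nat.card_prod, card_cjx] at this
  obtain ⟨hr4, m, hmr, hm⟩ := hreg'.bound hwP hr2 hC hyR hcore
  refine ⟨?_, ?_⟩
  · rcases (show r = 2 ∨ r = 3 ∨ r = 4 by omega) with rfl | rfl | rfl <;> simp [hPr]
  -- the structure
  have hQel : ∀ x ∈ Q, ∀ z ∈ Q, x * z = z * x := fun x hx z hz => by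
    rw [← hQwin] at hx hz
    have hle : win g b 1 (r - 1) ≤ centralizer ({x} : Set G) := win_le fun j h1 h2 =>
      mem_centralizer_singleton_iff.mpr (hm.comm_win (fun i h3 h4 => ⟨by omega, by omega⟩) hx).eq.symm
    exact (mem_centralizer_singleton_iff.mp (hle hz)).symm
  have hQsq : ∀ x ∈ Q, x * x = 1 := fun x hx => by
    have hx' := hx
    rw [← hQwin] at hx'
    refine (closure_induction (p := fun w _ => w * w = 1 ∧ w ∈ Q) ?_ ⟨one_mul 1, one_mem _⟩ ?_ ?_ hx').1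
    · rintro _ ⟨j, ⟨hj1, hj2⟩, rfl⟩
      exact ⟨hreg'.sq (by omega) j, hQwin ▸ el_mem_win g b hj1 hj2⟩
    · rintro u v _ _ ⟨hu2, huw⟩ ⟨hv2, hvw⟩
      exact ⟨by rw [mul_assoc, ← mul_assoc v u, hQel v hvw u huw, mul_assoc, ← mul_assoc u u, hu2, one_mul, hv2],
        mul_mem huw hvw⟩
    · rintro u _ ⟨hu2, huw⟩
      exact ⟨by rw [inv_eq_of_mul_eq_one_right hu2, hu2], inv_mem huw⟩
  have hbP : el g b 0 ∈ P := hwP ▸ el_mem_win g b le_rfl (by omega)
  set t : ↥H := ⟨el g b 0, hPH hbP⟩ with ht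
  have htQ : t ∉ Q₀ := fun h => hreg'.not_left (i := 0) (k := r - 1) (by omega)
    (hQwin.symm ▸ ⟨t, h, rfl⟩)
  have htt : t * t = 1 := Subtype.ext (hreg'.sq (by omega) 0)
  have hφt : φ t = DihedralGroup.sr s :=
    (himage t (show (t : G) ∈ P from hbP)).resolve_left fun h => htQ (hker ▸ MonoidHom.mem_ker.mpr h)
  -- the element of odd order
  set d₁ : ↥H := t * (d₀ * t * d₀⁻¹) with hd₁
  obtain ⟨k, mo, hmo, hko⟩ := Nat.exists_eq_two_pow_mul_odd (orderOf_pos d₁).ne'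
  set d : ↥H := d₁ ^ 2 ^ k with hd
  have hdodd : Odd (orderOf d) := Odd.of_dvd_nat hmo (orderOf_dvd_of_pow_eq_one (by
    rw [hd, ← pow_mul, ← hko, pow_orderOf_eq_one]))
  have htinv : t⁻¹ = t := inv_eq_of_mul_eq_one_right htt
  have htdt : t * d * t = d⁻¹ := by
    have h1 : t * d₁ * t⁻¹ = d₁⁻¹ := by
      rw [hd₁, mul_inv_rev, mul_inv_rev, mul_inv_rev, inv_inv, htinv, ← mul_assoc, htt, one_mul]
      group
    calc t * d * t = t * d₁ ^ 2 ^ k * t⁻¹ := by rw [htinv]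
      _ = d⁻¹ := by rw [← conj_pow, h1, inv_pow]
  set v : ZMod n := ((2 ^ k : ℕ) : ZMod n) * ((s - 2) - s) with hv
  have hφd : φ d = DihedralGroup.r v := by
    rw [hd, map_pow, hd₁, map_mul, map_mul, map_mul, map_inv, hd₀, hφt, hrot, DihedralGroup.sr_mul_sr, rot_pow]
  have hunit : IsUnit v := by
    refine IsUnit.mul ?_ ?_
    · exact (ZMod.unitOfCoprime _ (Nat.Coprime.pow_left k h2cop)).isUnit
    · rw [show s - 2 - s = -((2 : ℕ) : ZMod n) by push_cast; ring]
      exact (ZMod.unitOfCoprime 2 h2cop).isUnit.neg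
  obtain ⟨u, hu⟩ := hunit
  have hdec : ∀ x : ↥H, ∃ q ∈ Q₀, ∃ j : ℕ, x = q * d ^ j ∨ x = q * d ^ j * t := by
    intro x
    have hgenr : ∀ i : ZMod n, ∃ j : ℕ, φ (d ^ j) = DihedralGroup.r i := fun i => by
      refine ⟨(i * ↑u⁻¹ : ZMod n).val, ?_⟩
      rw [map_pow, hφd, rot_pow, ZMod.natCast_val, ZMod.cast_id, ← hu, mul_assoc, Units.inv_mul, mul_one]
    rcases hx : φ x with i | i
    · obtain ⟨j, hj⟩ := hgenr i
      refine ⟨x * (d ^ j)⁻¹, ?_, j, Or.inl (by rw [inv_mul_cancel_right])⟩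
      rw [← hker, MonoidHom.mem_ker, map_mul, map_inv, hj, hx, mul_inv_cancel]
    · obtain ⟨j, hj⟩ := hgenr (s - i)
      refine ⟨x * t⁻¹ * (d ^ j)⁻¹, ?_, j, Or.inr (by rw [inv_mul_cancel_right, inv_mul_cancel_right])⟩
      rw [← hker, MonoidHom.mem_ker, map_mul, map_inv, hj, map_mul, map_inv, hx, hφt, DihedralGroup.inv_sr,
        DihedralGroup.sr_mul_sr, DihedralGroup.inv_r, DihedralGroup.r_mul_r, add_neg_cancel, DihedralGroup.one_def]
  have hdih : Dih Q₀ t d :=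
    ⟨hQ0n, fun q hq => Subtype.ext (hQsq _ ⟨q, hq, rfl⟩),
      fun a ha b hb => Subtype.ext (hQel _ ⟨a, ha, rfl⟩ _ ⟨b, hb, rfl⟩), htt, hdodd, htdt, htQ, hdec⟩
  have hQ0card : Nat.card Q₀ = 2 ^ (r - 1) := by rw [← hQcard, ← hQwin, hreg'.card 1 (by omega)]
  rcases Nat.eq_or_lt_of_le hr2 with h2 | h3
  · left
    exact hdih.klein (by rw [hQ0card, ← h2]; norm_num)
  · right
    set R₀ := (win g b 1 (r - 2)).subgroupOf H with hR₀
    have hwQ : win g b 1 (r - 2) ≤ Q := hQwin ▸ win_mono g b le_rfl (by omega)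
    have hRQ : R₀ ≤ Q₀ := fun x hx => by
      obtain ⟨z, hz, hzx⟩ := hwQ hx
      exact Subtype.ext hzx ▸ hz
    have hR2 : Nat.card Q₀ = 2 * Nat.card R₀ := by
      rw [hQ0card, hR₀, Nat.card_congr (subgroupOfEquivOfLe (hwQ.trans hQH)).toEquiv, hreg'.card 1 (by omega),
        ← pow_succ']
      congr 1
      omega
    have hRt : ∀ x ∈ R₀, t * x = x * t := fun x hx => Subtype.ext
      (hm.comm_win (q := 0) (fun i h3 h4 => ⟨by omega, by omega⟩) hx).eq.symm
    have hnt : ∃ q ∈ Q₀, d * q ≠ q * d := by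
      by_contra hcon
      push Not at hcon
      have hbot := hyQ (win g b 1 (r - 2)) (hwQ.trans hQP) (⟨fun z hz x => ?_⟩) hyR
      · have h1 := hreg'.card 1 (k := r - 2) (by omega)
        rw [hbot, card_bot] at h1
        have : 2 ^ 1 ≤ 2 ^ (r - 2) := Nat.pow_le_pow_right (by omega) (by omega)
        omega
      · have hzQ : z ∈ Q₀ := hRQ hz
        obtain ⟨q, hq, j, hx⟩ := hdec x
        have hz1 : q * z * q⁻¹ = z := by rw [hdih.comm q hq z hzQ, mul_inv_cancel_right]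
        have hzd : d ^ j * z * (d ^ j)⁻¹ = z := by
          rw [((show Commute d z from hcon z hzQ).pow_left j).eq, mul_inv_cancel_right]
        have hzt : t * z * t⁻¹ = z := by rw [hRt z hz, mul_inv_cancel_right]
        rcases hx with rfl | rfl
        · rw [show q * d ^ j * z * (q * d ^ j)⁻¹ = q * (d ^ j * z * (d ^ j)⁻¹) * q⁻¹ by group, hzd, hz1]; exact hz
        · rw [show q * d ^ j * t * z * (q * d ^ j * t)⁻¹ = q * (d ^ j * (t * z * t⁻¹) * (d ^ j)⁻¹) * q⁻¹ by group,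
            hzt, hzd, hz1]
          exact hz
    exact hdih.symFour (s := r - 1) (by omega) hQ0card hRQ hR2 hRt hnt

end CfsgLib.DihedralPush
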