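import Cfsg.Agent.DihedralPush.Chain

/-!
Commutation in the chain of involutions: the length is at most 4 when the common centre is small.
-/

set_option autoImplicit false
open Subgroup CfsgLib.CubicAmalgam
open scoped commutatorElement

namespace CfsgLib.DihedralPush

variable {G : Type*} [Group G] [Finite G] {g b : G} {r : ℕ}

/-- The windows have the expected orders up to length `r`. -/
def Regular (g b : G) (r : ℕ) : Prop := ∀ k ≤ r, Nat.card ↥(win g b 0 k) = 2 ^ k

theorem Regular.card (h : Regular g b r) (i : ℕ) {k : ℕ} (hk : k ≤ r) : Nat.card ↥(win g b i k) = 2 ^ k := by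
  rw [← Nat.zero_add i, ← cj_win, card_cjx, h k hk]

theorem Regular.not_left (h : Regular g b r) {i k : ℕ} (hk : k + 1 ≤ r) : el g b i ∉ win g b (i + 1) k := by
  intro hcon
  have hle : win g b i (k + 1) ≤ win g b (i + 1) k := win_le fun j h1 h2 => by
    rcases Nat.eq_or_lt_of_le h1 with rfl | h1'
    · exact hcon
    · exact el_mem_win g b h1' (by omega)
  have := card_le_of_le hle
  rw [h.card i hk, h.card (i + 1) (by omega), pow_succ] at this
  have := Nat.two_pow_pos k
  omega

theorem Regular.not_right (h : Regular g b r) {i k : ℕ} (hk : k + 1 ≤ r) : el g b (i + k) ∉ win g b i k := by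
  intro hcon
  have hle : win g b i (k + 1) ≤ win g b i k := win_le fun j h1 h2 => by
    rcases Nat.eq_or_lt_of_le (show j ≤ i + k by omega) with rfl | h1'
    · exact hcon
    · exact el_mem_win g b h1 h1'
  have := card_le_of_le hle
  rw [h.card i hk, h.card i (by omega), pow_succ] at this
  have := Nat.two_pow_pos k
  omega

theorem Regular.sq (h : Regular g b r) (hr : 1 ≤ r) (i : ℕ) : el g b i * el g b i = 1 := by
  have hm := el_mem_win g b (le_refl i) (show i < i + 1 by omega)
  have hc : Nat.card ↥(win g b i 1) = 2 := by rw [h.card i hr, pow_one]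
  have := congrArg Subtype.val (pow_card_eq_one' (x := (⟨_, hm⟩ : ↥(win g b i 1))))
  rw [hc, pow_two] at this
  simpa using this

theorem Regular.ne_one (h : Regular g b r) (hr : 1 ≤ r) (i : ℕ) : el g b i ≠ 1 := fun e =>
  h.not_left (i := i) (k := 0) hr (by rw [e]; exact one_mem _)

theorem Regular.two_left (h : Regular g b r) {i k : ℕ} (hk : k + 1 ≤ r) :
    Nat.card ↥(win g b i (k + 1)) = 2 * Nat.card ↥(win g b (i + 1) k) := by
  rw [h.card i hk, h.card _ (by omega), pow_succ, Nat.mul_comm]

theorem Regular.two_right (h : Regular g b r) {i k : ℕ} (hk : k + 1 ≤ r) :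
    Nat.card ↥(win g b i (k + 1)) = 2 * Nat.card ↥(win g b i k) := by
  rw [h.card i hk, h.card _ (by omega), pow_succ, Nat.mul_comm]

theorem mul_mem_of_two {A K : Subgroup G} (hA : A ≤ K) (h : Nat.card K = 2 * Nat.card A) {x y : G}
    (hx : x ∈ K) (hy : y ∈ K) (hxA : x ∉ A) (hyA : y ∉ A) : x * y ∈ A := by
  have hidx : (A.subgroupOf K).index = 2 := by
    have h1 := (A.subgroupOf K).card_mul_index
    rw [Nat.card_congr (subgroupOfEquivOfLe hA).toEquiv, h, Nat.mul_comm 2] at h1
    exact Nat.eq_of_mul_eq_mul_left Nat.card_pos h1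
  exact ((mul_mem_iff_of_index_two hidx (a := ⟨x, hx⟩) (b := ⟨y, hy⟩)).mpr
    ⟨fun hh => absurd hh hxA, fun hh => absurd hh hyA⟩ : _)

theorem Regular.lead (h : Regular g b r) {i k : ℕ} (hk : k + 1 ≤ r) {z : G} (hz : z ∈ win g b i (k + 1)) :
    z ∈ win g b (i + 1) k ∨ el g b i * z ∈ win g b (i + 1) k := by
  by_cases hz' : z ∈ win g b (i + 1) k
  · exact Or.inl hz'
  · exact Or.inr (mul_mem_of_two (win_mono g b (by omega) (by omega)) (h.two_left hk)
      (el_mem_win g b le_rfl (by omega)) hz (h.not_left hk) hz')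

theorem Regular.tail (h : Regular g b r) {i k : ℕ} (hk : k + 1 ≤ r) {z : G} (hz : z ∈ win g b i (k + 1)) :
    z ∈ win g b i k ∨ el g b (i + k) * z ∈ win g b i k := by
  by_cases hz' : z ∈ win g b i k
  · exact Or.inl hz'
  · exact Or.inr (mul_mem_of_two (win_mono g b le_rfl (by omega)) (h.two_right hk)
      (el_mem_win g b (by omega) (by omega)) hz (h.not_right hk) hz')

theorem Regular.inf_win (h : Regular g b r) {i k : ℕ} (hk : k + 2 ≤ r) :
    win g b i (k + 1) ⊓ win g b (i + 1) (k + 1) = win g b (i + 1) k := by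
  refine le_antisymm (fun z hz => ?_) (le_inf (win_mono g b (by omega) (by omega)) (win_mono g b le_rfl (by omega)))
  rcases h.lead (by omega) hz.1 with h' | h'
  · exact h'
  · exfalso
    apply h.not_left (i := i) hk
    have := mul_mem (win_mono g b (i := i + 1) (k := k) (i' := i + 1) (k' := k + 1) le_rfl (by omega) h')
      (inv_mem hz.2)
    simpa [mul_assoc] using this

theorem Regular.comm_mem (h : Regular g b r) {i d : ℕ} (hd : d + 2 ≤ r) :
    ⁅el g b i, el g b (i + d + 1)⁆ ∈ win g b (i + 1) d := by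
  rw [← h.inf_win hd]
  set W := win g b i (d + 2)
  have hi : el g b i ∈ W := el_mem_win g b le_rfl (by omega)
  have hj : el g b (i + d + 1) ∈ W := el_mem_win g b (by omega) (by omega)
  have hA : W ≤ normalizer (win g b i (d + 1) : Set G) :=
    normal_of_two (win_mono g b le_rfl (by omega)) (h.two_right hd)
  have hB : W ≤ normalizer (win g b (i + 1) (d + 1) : Set G) :=
    normal_of_two (win_mono g b (by omega) (by omega)) (h.two_left hd)
  have hiA : el g b i ∈ win g b i (d + 1) := el_mem_win g b le_rfl (by omega)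
  have hjB : el g b (i + d + 1) ∈ win g b (i + 1) (d + 1) := el_mem_win g b (by omega) (by omega)
  refine ⟨?_, ?_⟩
  · rw [commutatorElement_def, mul_assoc, mul_assoc]
    refine Subgroup.mul_mem _ hiA ?_
    rw [← mul_assoc]
    exact conj_mem_of_normalizer (hA hj) (inv_mem hiA)
  · rw [commutatorElement_def]
    exact Subgroup.mul_mem _ (conj_mem_of_normalizer (hB hi) hjB) (Subgroup.inv_mem _ hjB)

theorem commute_shift (g b : G) (i j s : ℕ) :
    Commute (el g b (i + s)) (el g b (j + s)) ↔ Commute (el g b i) (el g b j) := by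
  rw [el_add, el_add]
  exact ⟨fun h => h.of_map (f := (MulAut.conj (g ^ s)).toMonoidHom) (MulAut.conj (g ^ s)).injective,
    fun h => h.map (MulAut.conj (g ^ s)).toMonoidHom⟩

/-- The elements at distance at most `m` commute. -/
def Near (g b : G) (m : ℕ) : Prop := ∀ d ≤ m, Commute (el g b 0) (el g b d)

theorem Near.comm {m : ℕ} (hm : Near g b m) {i j : ℕ} (h1 : i ≤ j + m) (h2 : j ≤ i + m) :
    Commute (el g b i) (el g b j) := by
  rcases Nat.le_total i j with h | h
  · have := (commute_shift g b 0 (j - i) i).mpr (hm (j - i) (by omega))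
    rwa [Nat.zero_add, Nat.sub_add_cancel h] at this
  · have := (commute_shift g b 0 (i - j) j).mpr (hm (i - j) (by omega))
    rw [Nat.zero_add, Nat.sub_add_cancel h] at this
    exact this.symm

theorem Near.comm_win {m : ℕ} (hm : Near g b m) {i k q : ℕ}
    (h : ∀ j, i ≤ j → j < i + k → j ≤ q + m ∧ q ≤ j + m) {z : G} (hz : z ∈ win g b i k) :
    Commute z (el g b q) := by
  have hle : win g b i k ≤ centralizer ({el g b q} : Set G) := win_le fun j h1 h2 =>
    mem_centralizer_singleton_iff.mpr (hm.comm (h j h1 h2).1 (h j h1 h2).2).eq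
  exact mem_centralizer_singleton_iff.mp (hle hz)

theorem not_commute_far {m : ℕ} (hf : ¬ Commute (el g b 0) (el g b (m + 1))) (i : ℕ) :
    ¬ Commute (el g b i) (el g b (i + m + 1)) := by
  have := (commute_shift g b 0 (m + 1) i)
  rw [Nat.zero_add, show m + 1 + i = i + m + 1 by omega] at this
  exact fun hh => hf (this.mp hh)

/-- An element of a window commuting with the right far neighbour of its first index avoids that index. -/
theorem Regular.drop_left (h : Regular g b r) {m : ℕ} (hm : Near g b m)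
    (hf : ¬ Commute (el g b 0) (el g b (m + 1))) {i k : ℕ} (hk : k + 1 ≤ r) (hk2 : k ≤ 2 * m + 1)
    {z : G} (hz : z ∈ win g b i (k + 1)) (hc : Commute z (el g b (i + m + 1))) : z ∈ win g b (i + 1) k := by
  refine (h.lead hk hz).resolve_right fun h' => ?_
  have h1 := hm.comm_win (q := i + m + 1) (fun j h1 h2 => ⟨by omega, by omega⟩) h'
  refine not_commute_far hf i ?_
  have := h1.mul_left hc.inv_left
  rwa [mul_inv_cancel_right] at this

theorem Regular.drop_right (h : Regular g b r) {m : ℕ} (hm : Near g b m)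
    (hf : ¬ Commute (el g b 0) (el g b (m + 1))) {i k : ℕ} (hk : k + 1 ≤ r) (hk2 : k ≤ 2 * m + 1)
    (hik : m + 1 ≤ i + k) {z : G} (hz : z ∈ win g b i (k + 1)) (hc : Commute z (el g b (i + k - (m + 1)))) :
    z ∈ win g b i k := by
  refine (h.tail hk hz).resolve_right fun h' => ?_
  have h1 := hm.comm_win (q := i + k - (m + 1)) (fun j h1 h2 => ⟨by omega, by omega⟩) h'
  refine not_commute_far hf (i + k - (m + 1)) ?_
  rw [show i + k - (m + 1) + m + 1 = i + k by omega]
  have := h1.mul_left hc.inv_left
  rw [mul_inv_cancel_right] at this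
  exact this.symm

theorem Regular.not_long (h : Regular g b r) {m : ℕ} (hm : Near g b m)
    (hf : ¬ Commute (el g b 0) (el g b (m + 1))) : r ≤ 2 * m + 1 := by
  by_contra hcon
  set W := win g b 0 (2 * m + 2) with hW
  have hWc : Nat.card ↥W = 2 ^ (2 * m + 2) := h _ (by omega)
  have hWp : IsPGroup 2 ↥W := IsPGroup.of_card hWc
  haveI : Nontrivial ↥W := Finite.one_lt_card_iff_nontrivial.mp (by
    rw [hWc]; exact Nat.one_lt_two_pow (by omega))
  haveI : Fact (Nat.Prime 2) := ⟨Nat.prime_two⟩
  haveI := hWp.center_nontrivial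
  obtain ⟨⟨⟨z, hzW⟩, hzc⟩, hz1⟩ := exists_ne (1 : ↥(center ↥W))
  have hcomm : ∀ q, q < 2 * m + 2 → Commute z (el g b q) := fun q hq => by
    have := mem_center_iff.mp hzc ⟨el g b q, el_mem_win g b (Nat.zero_le q) (by omega)⟩
    exact (congrArg Subtype.val this).symm
  have hstep : ∀ s, s ≤ m + 1 → z ∈ win g b s (2 * m + 2 - s) := by
    intro s
    induction s with
    | zero => exact fun _ => hzW
    | succ s ih =>
      intro hs
      have h1 := ih (by omega)
      rw [show 2 * m + 2 - s = (2 * m + 1 - s) + 1 by omega] at h1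
      rw [show 2 * m + 2 - (s + 1) = 2 * m + 1 - s by omega]
      exact h.drop_left hm hf (by omega) (by omega) h1 (hcomm _ (by omega))
  have hdown : ∀ e, e ≤ m + 1 → z ∈ win g b (m + 1) (m + 1 - e) := by
    intro e
    induction e with
    | zero => exact fun _ => by simpa [show 2 * m + 2 - (m + 1) = m + 1 by omega] using hstep (m + 1) le_rfl
    | succ e ih =>
      intro he
      have h1 := ih (by omega)
      rw [show m + 1 - e = (m - e) + 1 by omega] at h1
      rw [show m + 1 - (e + 1) = m - e by omega]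
      exact h.drop_right hm hf (by omega) (by omega) (by omega) h1 (hcomm _ (by omega))
  have := hdown (m + 1) le_rfl
  rw [Nat.sub_self, win_zero, mem_bot] at this
  exact hz1 (Subtype.ext (Subtype.ext this))

theorem Regular.center_win (h : Regular g b r) {m : ℕ} (hm : Near g b m)
    (hf : ¬ Commute (el g b 0) (el g b (m + 1))) (hmr : m + 1 ≤ r - 1) {z : G} (hz : z ∈ win g b 0 r)
    (hc : ∀ q < r, Commute z (el g b q)) : z ∈ win g b (r - 1 - m) (2 * m + 2 - r) := by
  have hr := h.not_long hm hf
  have hstep : ∀ s, s ≤ r - 1 - m → z ∈ win g b s (r - s) := by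
    intro s
    induction s with
    | zero => exact fun _ => hz
    | succ s ih =>
      intro hs
      have h1 := ih (by omega)
      rw [show r - s = (r - s - 1) + 1 by omega] at h1
      rw [show r - (s + 1) = r - s - 1 by omega]
      exact h.drop_left hm hf (by omega) (by omega) h1 (hc _ (by omega))
  have hdown : ∀ e, e ≤ r - (m + 1) → z ∈ win g b (r - 1 - m) (m + 1 - e) := by
    intro e
    induction e with
    | zero => exact fun _ => by simpa [show r - (r - 1 - m) = m + 1 by omega] using hstep _ le_rfl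
    | succ e ih =>
      intro he
      have h1 := ih (by omega)
      rw [show m + 1 - e = (m - e) + 1 by omega] at h1
      rw [show m + 1 - (e + 1) = m - e by omega]
      exact h.drop_right hm hf (by omega) (by omega) (by omega) h1 (hc _ (by omega))
  have := hdown (r - (m + 1)) le_rfl
  rwa [show m + 1 - (r - (m + 1)) = 2 * m + 2 - r by omega] at this

/-- The commutator of two elements at distance `m + 1` is central in the whole window. -/
theorem Regular.comm_central (h : Regular g b r) {m : ℕ} (hm : Near g b m) (hr : r ≤ 2 * m + 1) {i : ℕ}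
    (hi : i + m + 2 ≤ r) {k : ℕ} (hk : k < r) :
    Commute ⁅el g b i, el g b (i + m + 1)⁆ (el g b k) := by
  set x := el g b i with hx
  set y := el g b (i + m + 1) with hy
  have hw : ⁅x, y⁆ ∈ win g b (i + 1) m := h.comm_mem (by omega)
  have hx2 : x⁻¹ = x := inv_eq_of_mul_eq_one_right (h.sq (by omega) i)
  have hy2 : y⁻¹ = y := inv_eq_of_mul_eq_one_right (h.sq (by omega) _)
  by_cases h1 : i ≤ k ∧ k ≤ i + m + 1
  · exact hm.comm_win (fun j h2 h3 => ⟨by omega, by omega⟩) hw
  set a := el g b k with ha
  have ha2 : a⁻¹ = a := inv_eq_of_mul_eq_one_right (h.sq (by omega) k)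
  have key : a * ⁅x, y⁆ * a⁻¹ = ⁅x, y⁆ := by
    rw [conjugate_commutatorElement]
    by_cases h2 : k < i
    · have hax : Commute a x := hm.comm (by omega) (by omega)
      have e1 : a * x * a⁻¹ = x := by rw [hax.eq, mul_inv_cancel_right]
      have hc : y⁻¹ * (a * y * a⁻¹) ∈ win g b (k + 1) (i + m - k) := by
        have hh := h.comm_mem (i := k) (d := i + m - k) (by omega)
        rw [show k + (i + m - k) + 1 = i + m + 1 by omega, ← ha, ← hy] at hh
        have hinv := inv_mem hh
        have he : (⁅a, y⁆)⁻¹ = y⁻¹ * (a * y * a⁻¹) := by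
          rw [commutatorElement_inv, commutatorElement_def, ha2, hy2]; group
        rwa [he] at hinv
      have hcx : Commute (y⁻¹ * (a * y * a⁻¹)) x := hm.comm_win (fun j h3 h4 => ⟨by omega, by omega⟩) hc
      rw [e1, show a * y * a⁻¹ = y * (y⁻¹ * (a * y * a⁻¹)) by group]
      generalize y⁻¹ * (a * y * a⁻¹) = c at hcx
      calc ⁅x, y * c⁆ = x * y * (c * x⁻¹) * c⁻¹ * y⁻¹ := by simp only [commutatorElement_def, mul_inv_rev, mul_assoc]
        _ = x * y * (x⁻¹ * c) * c⁻¹ * y⁻¹ := by rw [hcx.inv_right.eq]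
        _ = ⁅x, y⁆ := by rw [commutatorElement_def]; group
    · have hay : Commute a y := hm.comm (by omega) (by omega)
      have e1 : a * y * a⁻¹ = y := by rw [hay.eq, mul_inv_cancel_right]
      have hc : x⁻¹ * (a * x * a⁻¹) ∈ win g b (i + 1) (k - i - 1) := by
        have hh := h.comm_mem (i := i) (d := k - i - 1) (by omega)
        rw [show i + (k - i - 1) + 1 = k by omega, ← hx, ← ha] at hh
        have he : ⁅x, a⁆ = x⁻¹ * (a * x * a⁻¹) := by
          rw [commutatorElement_def, hx2, ha2]; group
        rwa [he] at hh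
      have hcy : Commute (x⁻¹ * (a * x * a⁻¹)) y := hm.comm_win (fun j h3 h4 => ⟨by omega, by omega⟩) hc
      rw [e1, show a * x * a⁻¹ = x * (x⁻¹ * (a * x * a⁻¹)) by group]
      generalize x⁻¹ * (a * x * a⁻¹) = c at hcy
      calc ⁅x * c, y⁆ = x * (c * y) * c⁻¹ * x⁻¹ * y⁻¹ := by simp only [commutatorElement_def, mul_inv_rev, mul_assoc]
        _ = x * (y * c) * c⁻¹ * x⁻¹ * y⁻¹ := by rw [hcy.eq]
        _ = ⁅x, y⁆ := by rw [commutatorElement_def]; group
  calc ⁅x, y⁆ * a = a * ⁅x, y⁆ * a⁻¹ * a := by rw [key]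
    _ = a * ⁅x, y⁆ := by group

theorem Regular.exists_near (h : Regular g b r) (hr : 2 ≤ r) :
    ∃ m, 1 ≤ m ∧ m ≤ r - 1 ∧ Near g b m ∧ (m + 1 ≤ r - 1 → ¬ Commute (el g b 0) (el g b (m + 1))) := by
  classical
  have h01 : Near g b 1 := by
    intro d hd
    rcases Nat.le_one_iff_eq_zero_or_eq_one.mp hd with rfl | rfl
    · exact Commute.refl _
    · have := h.comm_mem (i := 0) (d := 0) (by omega)
      rw [win_zero, mem_bot, commutatorElement_eq_one_iff_mul_comm] at this
      exact this
  refine ⟨Nat.findGreatest (fun d => Near g b d) (r - 1), Nat.le_findGreatest (by omega) h01,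
    Nat.findGreatest_le _, Nat.findGreatest_spec (m := 1) (P := fun d => Near g b d) (show 1 ≤ r - 1 by omega) h01, fun hlt hc => ?_⟩
  have hn : Near g b (Nat.findGreatest (fun d => Near g b d) (r - 1) + 1) := by
    intro d hd
    rcases Nat.eq_or_lt_of_le hd with rfl | hd'
    · exact hc
    · exact Nat.findGreatest_spec (m := 1) (P := fun d => Near g b d) (show 1 ≤ r - 1 by omega) h01 d (Nat.le_of_lt_succ hd')
  have := Nat.le_findGreatest (P := fun d => Near g b d) hlt hn
  omega

/-- The length of the chain is at most 4. -/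
theorem Regular.bound {P : Subgroup G} {y : G} (h : Regular g b r) (hP : win g b 0 r = P) (hr : 2 ≤ r)
    (hC : ∀ C ≤ P, C ≤ centralizer (P : Set G) → C ≤ centralizer (cj g P : Set G) →
      Nat.card C * Nat.card C ≤ Nat.card ↥(P ⊓ centralizer (P : Set G)))
    (hy : cj y (win g b 1 (r - 2)) = win g b 1 (r - 2))
    (hcore : ∀ T ≤ P, P ≤ normalizer (T : Set G) → cj g P ≤ normalizer (T : Set G) → cj y T = T → T = ⊥) :
    r ≤ 4 ∧ ∃ m, r ≤ m + 2 ∧ Near g b m := by
  obtain ⟨m, hm1, hmr, hm, hf'⟩ := h.exists_near hr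
  have hPc : cj g P = win g b 1 r := by
    have := cj_win g b 0 r 1
    rwa [pow_one, hP, Nat.zero_add] at this
  have hwle : ∀ i k, i + k ≤ r → win g b i k ≤ P := fun i k hik => hP ▸ win_mono g b (Nat.zero_le i) (by omega)
  -- the size of the common centre
  have h2m : 2 * m ≤ r := by
    by_contra hcon
    have hCc : ∀ i k, (∀ j, i ≤ j → j < i + k → ∀ q, q ≤ r → j ≤ q + m ∧ q ≤ j + m) →
        win g b i k ≤ centralizer (P : Set G) ∧ win g b i k ≤ centralizer (cj g P : Set G) := by
      intro i k hh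
      constructor
      · rw [← hP, le_centralizer_iff]
        exact win_le fun q _ hq => mem_centralizer_iff.mpr fun z hz =>
          (hm.comm_win (fun j h1 h2 => hh j h1 h2 q (by omega)) hz).eq
      · rw [hPc, le_centralizer_iff]
        exact win_le fun q _ hq => mem_centralizer_iff.mpr fun z hz =>
          (hm.comm_win (fun j h1 h2 => hh j h1 h2 q (by omega)) hz).eq
    have hwin := hCc (r - m) (2 * m + 1 - r) (fun j h1 h2 q hq => by omega)
    have := hC _ (hwle _ _ (by omega)) hwin.1 hwin.2
    rw [h.card _ (by omega), ← pow_add] at this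
    have hZ : Nat.card ↥(P ⊓ centralizer (P : Set G)) ≤ 2 ^ (2 * m + 2 - r) := by
      by_cases hlt : m + 1 ≤ r - 1
      · rw [← h.card (r - 1 - m) (k := 2 * m + 2 - r) (by omega)]
        refine card_le_of_le fun z hz => h.center_win hm (hf' hlt) hlt (hP ▸ hz.1) fun q hq => ?_
        exact (hz.2 _ (hwle 0 r (by omega) (el_mem_win g b (Nat.zero_le q) (by omega)))).symm
      · rw [show 2 * m + 2 - r = r by omega, ← h r le_rfl, hP]
        exact card_le_of_le inf_le_left
    have := (Nat.pow_le_pow_iff_right (le_refl 2)).mp (this.trans hZ)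
    omega
  suffices h4 : r ≤ 4 by
    refine ⟨h4, m, ?_, hm⟩
    by_contra hc
    have := h.not_long hm (hf' (by omega))
    omega
  by_contra hbig
  have hlt : m + 1 ≤ r - 1 := by omega
  have hf := hf' hlt
  have hlong := h.not_long hm hf
  have hcen : ∀ i, i + m + 2 ≤ r → ⁅el g b i, el g b (i + m + 1)⁆ ∈ win g b (r - 1 - m) (2 * m + 2 - r) :=
    fun i hi => h.center_win hm hf hlt
      (win_mono g b (Nat.zero_le _) (by omega) (h.comm_mem (i := i) (d := m) (by omega)))
      fun q hq => h.comm_central hm hlong hi hq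
  have hne : ⁅el g b 0, el g b (0 + m + 1)⁆ ≠ 1 := fun e => hf (by
    rw [commutatorElement_eq_one_iff_mul_comm, Nat.zero_add] at e; exact e)
  have hshift : ∀ s, ⁅el g b s, el g b (s + m + 1)⁆ = g ^ s * ⁅el g b 0, el g b (0 + m + 1)⁆ * (g ^ s)⁻¹ := by
    intro s
    rw [conjugate_commutatorElement, ← el_add, ← el_add]
    congr 2 <;> omega
  have hsingle : ∀ (j : ℕ) (z : G), z ∈ win g b j 1 → z ≠ 1 → z = el g b j := by
    intro j z hz hz1
    rcases h.lead (i := j) (k := 0) (by omega) hz with h' | h'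
    · rw [win_zero, mem_bot] at h'; exact absurd h' hz1
    · rw [win_zero, mem_bot, mul_eq_one_iff_inv_eq, inv_eq_of_mul_eq_one_right (h.sq (by omega) j)] at h'
      exact h'.symm
  have hne' : ∀ s, ⁅el g b s, el g b (s + m + 1)⁆ ≠ 1 := fun s e => hne (conj_eq_one_iff.mp ((hshift s).symm.trans e))
  rcases (show r = 2 * m + 1 ∨ r = 2 * m by omega) with e | e
  · -- odd length
    have h0 := hcen 0 (by omega)
    have h1 := hcen (m - 1) (by omega)
    rw [show r - 1 - m = m by omega, show 2 * m + 2 - r = 1 by omega] at h0 h1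
    have e0 := hsingle _ _ h0 hne
    have e1 := hsingle _ _ h1 (hne' _)
    rw [hshift, e0, ← el_add] at e1
    apply h.not_right (i := m) (k := m - 1) (by omega)
    rw [e1]
    exact el_mem_win g b le_rfl (by omega)
  · -- even length
    have h0 := hcen 0 (by omega)
    have h1 := hcen 1 (by omega)
    rw [show r - 1 - m = m - 1 by omega, show 2 * m + 2 - r = 2 by omega] at h0 h1
    have h1' : ⁅el g b 1, el g b (1 + m + 1)⁆ ∈ win g b (m - 1 + 1) 2 := by
      rw [← cj_win, hshift, cj, mem_map]
      exact ⟨_, h0, rfl⟩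
    have h1'' : ⁅el g b 1, el g b (1 + m + 1)⁆ ∈ win g b (m - 1 + 1) 1 := by
      rw [← h.inf_win (i := m - 1) (k := 1) (by omega)]
      exact ⟨h1, h1'⟩
    have e1 := hsingle _ _ h1'' (hne' _)
    rw [show m - 1 + 1 = m by omega] at e1
    have e0 : ⁅el g b 0, el g b (0 + m + 1)⁆ = el g b (m - 1) := by
      apply (MulAut.conj (g ^ 1)).injective
      show g ^ 1 * _ * (g ^ 1)⁻¹ = g ^ 1 * _ * (g ^ 1)⁻¹
      rw [← hshift, e1, ← el_add]
      congr 1
      omega
    rcases (show 4 ≤ m ∨ m = 3 by omega) with h4 | rfl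
    · have h2 := hcen 2 (by omega)
      rw [show r - 1 - m = m - 1 by omega, show 2 * m + 2 - r = 2 by omega, hshift, e0, ← el_add] at h2
      rw [show m - 1 + 2 = m + 1 by omega] at h2
      apply h.not_right (i := m - 1) (k := 2) (by omega)
      rwa [show m - 1 + 2 = m + 1 by omega]
    -- length six
    obtain rfl : r = 6 := by omega
    simp only [Nat.zero_add, Nat.reduceAdd, Nat.reduceSub] at e0 e1
    set x0 := el g b 0 with hx0
    set x5 := el g b 5 with hx5
    have hx02 : x0⁻¹ = x0 := inv_eq_of_mul_eq_one_right (h.sq (by omega) 0)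
    have hx52 : x5⁻¹ = x5 := inv_eq_of_mul_eq_one_right (h.sq (by omega) 5)
    have hu : ⁅x0, x5⁆ ∈ win g b 1 4 := h.comm_mem (i := 0) (d := 4) (by omega)
    have hel : ∀ z ∈ win g b 1 4, z * z = 1 := by
      have hab : win g b 1 4 ≤ centralizer (win g b 1 4 : Set G) :=
        win_le fun j h1 h2 => mem_centralizer_iff.mpr fun w hw =>
          (hm.comm_win (fun i h3 h4 => ⟨by omega, by omega⟩) hw).eq
      intro z hz
      refine (closure_induction (p := fun w _ => w * w = 1 ∧ w ∈ win g b 1 4) ?_ ⟨one_mul 1, one_mem _⟩ ?_ ?_ hz).1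
      · rintro _ ⟨j, ⟨hj1, hj2⟩, rfl⟩
        exact ⟨h.sq (by omega) j, el_mem_win g b hj1 hj2⟩
      · rintro u v _ _ ⟨hu2, huw⟩ ⟨hv2, hvw⟩
        have hc : v * u = u * v := mem_centralizer_iff.mp (hab huw) v hvw
        exact ⟨by rw [mul_assoc, ← mul_assoc v u, hc, mul_assoc, ← mul_assoc u u, hu2, one_mul, hv2],
          mul_mem huw hvw⟩
      · rintro u _ ⟨hu2, huw⟩
        exact ⟨by rw [inv_eq_of_mul_eq_one_right hu2, hu2], inv_mem huw⟩
    have hcu : Commute x0 ⁅x0, x5⁆ := by
      have e5 : (⁅x0, x5⁆)⁻¹ = ⁅x0, x5⁆ := inv_eq_of_mul_eq_one_right (hel _ hu)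
      have e6 : x0 * ⁅x0, x5⁆ * x0⁻¹ = (⁅x0, x5⁆)⁻¹ := by
        rw [commutatorElement_inv, commutatorElement_def, commutatorElement_def, hx02, hx52]
        calc x0 * (x0 * x5 * x0 * x5) * x0 = (x0 * x0) * (x5 * x0 * x5 * x0) := by group
          _ = x5 * x0 * x5 * x0 := by rw [h.sq (by omega) 0, one_mul]
      rw [e5] at e6
      calc x0 * ⁅x0, x5⁆ = x0 * ⁅x0, x5⁆ * x0⁻¹ * x0 := by group
        _ = ⁅x0, x5⁆ * x0 := by rw [e6]
    have hu3 : ⁅x0, x5⁆ ∈ win g b 1 3 := by
      refine (h.tail (i := 1) (k := 3) (by omega) hu).resolve_right fun h' => hf ?_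
      have h1 : Commute (el g b (1 + 3) * ⁅x0, x5⁆) x0 :=
        hm.comm_win (q := 0) (fun j h3 h4 => ⟨by omega, by omega⟩) h'
      have h2 := h1.mul_left hcu.symm.inv_left
      rw [mul_inv_cancel_right] at h2
      exact h2.symm
    have hu4 : ⁅el g b 1, el g b 6⁆ ∈ win g b 1 4 := by
      refine win_mono g b (i := 2) (k := 3) (by omega) (by omega) ?_
      have h6 : ⁅el g b 1, el g b 6⁆ = g ^ 1 * ⁅x0, x5⁆ * (g ^ 1)⁻¹ := by
        rw [conjugate_commutatorElement, hx0, hx5, ← el_add, ← el_add]
      rw [h6, ← cj_win g b 1 3 1, conj_mem_cj]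
      exact hu3
    have hx62 : (el g b 6)⁻¹ = el g b 6 := inv_eq_of_mul_eq_one_right (h.sq (by omega) 6)
    have hn6 : el g b 6 ∈ normalizer (win g b 1 4 : Set G) := by
      refine mem_normalizer_of_le fun z hz => ?_
      have hle : win g b 1 4 ≤ cj (el g b 6) (win g b 1 4) := by
        refine win_le fun j h1 h2 => ?_
        rw [mem_cj, hx62]
        by_cases hj : 3 ≤ j
        · rw [(hm.comm (i := 6) (j := j) (by omega) (by omega)).eq, mul_assoc, h.sq (by omega) 6, mul_one]
          exact el_mem_win g b h1 h2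
        · have hc : (⁅el g b j, el g b 6⁆) ∈ win g b 1 4 := by
            rcases (show j = 1 ∨ j = 2 by omega) with rfl | rfl
            · exact hu4
            · have h2' : ⁅el g b 2, el g b 6⁆ = el g b 4 := by
                have := hshift 2
                simp only [Nat.zero_add, Nat.reduceAdd] at this
                rw [this, e0, ← el_add]
              rw [h2']
              exact el_mem_win g b (by omega) (by omega)
          have e7 : el g b 6 * el g b j * el g b 6 = el g b j * ⁅el g b j, el g b 6⁆ := by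
            rw [commutatorElement_def, inv_eq_of_mul_eq_one_right (h.sq (by omega) j), hx62]
            calc _ = (el g b j * el g b j) * (el g b 6 * el g b j * el g b 6) := by
                  rw [h.sq (by omega) j, one_mul]
              _ = _ := by group
          rw [e7]
          exact mul_mem (el_mem_win g b h1 h2) hc
      have := hle hz
      rw [mem_cj, hx62] at this
      rwa [hx62]
    have hn : win g b 0 7 ≤ normalizer (win g b 1 4 : Set G) := by
      refine win_le fun j h1 h2 => ?_
      rcases (show j = 6 ∨ j ≤ 5 by omega) with rfl | hj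
      · exact hn6
      · have hA : win g b 0 6 ≤ normalizer (win g b 0 5 : Set G) :=
          normal_of_two (win_mono g b le_rfl (by omega)) (h.two_right le_rfl)
        have hB : win g b 0 6 ≤ normalizer (win g b 1 5 : Set G) :=
          normal_of_two (win_mono g b (by omega) (by omega)) (h.two_left le_rfl)
        have hj' : el g b j ∈ win g b 0 6 := el_mem_win g b h1 (by omega)
        refine mem_normalizer_of_le fun z hz => ?_
        rw [← h.inf_win (i := 0) (k := 4) le_rfl] at hz ⊢
        exact ⟨conj_mem_of_normalizer (hA hj') hz.1, conj_mem_of_normalizer (hB hj') hz.2⟩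
    have hbot := hcore (win g b 1 4) (hwle 1 4 (by omega))
      (hP ▸ (win_mono g b le_rfl (by omega)).trans hn)
      (hPc ▸ (win_mono g b (by omega) (by omega)).trans hn) hy
    exact h.ne_one (by omega) 1 (mem_bot.mp (hbot ▸ el_mem_win g b le_rfl (by omega)))

end CfsgLib.DihedralPush
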